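import Mathlib
import Cfsg.Agent.Lib.Helper69.Split4

/-!
# Groups whose two largest class sizes are coprime

If the two largest class sizes `m > n > 1` are coprime then the class sizes are exactly `1, n, m`.
(The final structure is then read off from helper69's `Split` library.)
-/

set_option autoImplicit false

namespace Cfsg.Agent.Lib.Helper59.TopTwo

open Subgroup Cfsg.Agent.Lib.Helper69

variable {G : Type*} [Group G]

/-- The left-multiplication stabiliser of a conjugacy class
(generalisation of helper69's `Split.exists_L`, same proof). -/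
theorem exists_stab [Finite G] (y : G) :
    ∃ L : Subgroup G, L.Normal ∧ Nat.card L ∣ cind y ∧
      (∀ l ∈ L, ∀ k : G, ∃ k' : G, l * (k * y * k⁻¹) = k' * y * k'⁻¹) ∧
      ∀ w, (cind w).Coprime (cind y) → cind (w * y) ≤ cind y →
        ∀ g : G, w⁻¹ * (g * w * g⁻¹) ∈ L := by
  classical
  set D : Set G := Set.range (fun g : G => g * y * g⁻¹) with hD
  have hDc : D.ncard = cind y := (index_centralizer_eq_ncard_range y).symm
  have hDconj : ∀ g d, d ∈ D → g * d * g⁻¹ ∈ D := by
    rintro g _ ⟨k, rfl⟩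
    exact ⟨g * k, by group⟩
  let L : Subgroup G :=
    { carrier := {l | (∀ d ∈ D, l * d ∈ D) ∧ (∀ d ∈ D, l⁻¹ * d ∈ D)}
      one_mem' := ⟨fun d hd => by simpa using hd, fun d hd => by simpa using hd⟩
      mul_mem' := by
        rintro a b ⟨ha1, ha2⟩ ⟨hb1, hb2⟩
        refine ⟨fun d hd => ?_, fun d hd => ?_⟩
        · rw [mul_assoc]; exact ha1 _ (hb1 _ hd)
        · rw [mul_inv_rev, mul_assoc]; exact hb2 _ (ha2 _ hd)
      inv_mem' := by
        rintro a ⟨ha1, ha2⟩
        exact ⟨ha2, fun d hd => by rw [inv_inv]; exact ha1 d hd⟩ }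
  have hLmem : ∀ l, l ∈ L ↔ (∀ d ∈ D, l * d ∈ D) ∧ (∀ d ∈ D, l⁻¹ * d ∈ D) := fun l => Iff.rfl
  have hLn : L.Normal := by
    constructor
    intro l hl g
    rw [hLmem] at hl ⊢
    refine ⟨fun d hd => ?_, fun d hd => ?_⟩
    · have := hDconj g _ (hl.1 _ (hDconj g⁻¹ d hd))
      have e : g * (l * (g⁻¹ * d * g⁻¹⁻¹)) * g⁻¹ = g * l * g⁻¹ * d := by group
      rwa [e] at this
    · have := hDconj g _ (hl.2 _ (hDconj g⁻¹ d hd))
      have e : g * (l⁻¹ * (g⁻¹ * d * g⁻¹⁻¹)) * g⁻¹ = (g * l * g⁻¹)⁻¹ * d := by group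
      rwa [e] at this
  have hLD : Nat.card L ∣ cind y := by
    have hpre : D = (QuotientGroup.mk : G → G ⧸ L) ⁻¹' ((QuotientGroup.mk : G → G ⧸ L) '' D) := by
      apply Set.Subset.antisymm (Set.subset_preimage_image _ _)
      rintro g ⟨d, hd, hdg⟩
      have h1 : d⁻¹ * g ∈ L := QuotientGroup.eq.1 hdg
      have h2 : d * (d⁻¹ * g) * d⁻¹ ∈ L := hLn.conj_mem _ h1 d
      have h3 := ((hLmem _).1 h2).1 d hd
      have e : d * (d⁻¹ * g) * d⁻¹ * d = g := by group
      rwa [e] at h3
    have h1 := Nat.card_congr (QuotientGroup.preimageMkEquivSubgroupProdSet L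
      ((QuotientGroup.mk : G → G ⧸ L) '' D))
    rw [← hpre, Nat.card_prod, Nat.card_coe_set_eq, hDc] at h1
    exact ⟨_, h1⟩
  refine ⟨L, hLn, hLD, ?_, ?_⟩
  · intro l hl k
    obtain ⟨k', hk'⟩ := ((hLmem l).1 hl).1 (k * y * k⁻¹) ⟨k, rfl⟩
    exact ⟨k', hk'.symm⟩
  intro w hw hle g
  set E : Set G := Set.range (fun k : G => k * (w * y) * k⁻¹) with hE
  have hEc : E.ncard ≤ D.ncard := by
    rw [hDc, ← index_centralizer_eq_ncard_range]
    exact hle
  have key : ∀ a : G, (fun d => (a * w * a⁻¹) * d) '' D = E := by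
    intro a
    apply Set.eq_of_subset_of_ncard_le _ _ (Set.toFinite _)
    · rintro _ ⟨_, ⟨b, rfl⟩, rfl⟩
      obtain ⟨k, hk1, hk2⟩ := exists_simul_conj hw a b
      refine ⟨k, ?_⟩
      show k * (w * y) * k⁻¹ = a * w * a⁻¹ * (b * y * b⁻¹)
      rw [← hk1, ← hk2]
      group
    · rw [Set.ncard_image_of_injective _ (mul_right_injective _)]
      exact hEc
  have k1 := key 1
  have kg := key g
  simp only [one_mul, inv_one, mul_one] at k1
  rw [hLmem]
  refine ⟨fun d hd => ?_, fun d hd => ?_⟩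
  · have h1 : g * w * g⁻¹ * d ∈ E := by rw [← kg]; exact ⟨d, hd, rfl⟩
    rw [← k1] at h1
    obtain ⟨d', hd', he⟩ := h1
    have e : w⁻¹ * (g * w * g⁻¹) * d = d' := by
      rw [mul_assoc, ← he, inv_mul_cancel_left]
    rw [e]; exact hd'
  · have h1 : w * d ∈ E := by rw [← k1]; exact ⟨d, hd, rfl⟩
    rw [← kg] at h1
    obtain ⟨d', hd', he⟩ := h1
    have he' : g * w * g⁻¹ * d' = w * d := he
    have e : (w⁻¹ * (g * w * g⁻¹))⁻¹ * d = d' := by
      rw [mul_inv_rev, inv_inv, mul_assoc, ← he', inv_mul_cancel_left]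
    rw [e]; exact hd'

theorem index_inf_of_coprime [Finite G] (A B : Subgroup G) (h : A.index.Coprime B.index) :
    (A ⊓ B).index = A.index * B.index := by
  have e1 : (A ⊓ B).relIndex B * B.index = (A ⊓ B).index := relIndex_mul_index inf_le_right
  rw [inf_relIndex_right, relIndex_eq_index_of_coprime A B h] at e1
  exact e1.symm

theorem le_of_le_of_index_eq [Finite G] {H K : Subgroup G} (hle : H ≤ K)
    (h : H.index = K.index) : K ≤ H := by
  have e1 : H.relIndex K * K.index = H.index := relIndex_mul_index hle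
  rw [h] at e1
  have h0 : 0 < K.index := Nat.pos_of_ne_zero index_ne_zero_of_finite
  have : H.relIndex K = 1 := by
    have : H.relIndex K * K.index = 1 * K.index := by rw [e1, one_mul]
    exact Nat.eq_of_mul_eq_mul_right h0 this
  exact relIndex_eq_one.1 this

theorem cind_pos [Finite G] (g : G) : 0 < cind g := Nat.pos_of_ne_zero index_ne_zero_of_finite

theorem cind_mul_dvd [Finite G] {a b : G} (h : (cind a).Coprime (cind b)) :
    cind (a * b) ∣ cind a * cind b := by
  rw [← index_inf_of_coprime _ _ h]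
  apply index_dvd_of_le
  rintro c ⟨h1, h2⟩
  have h1' : Commute c a := mem_cent_singleton.1 h1
  have h2' : Commute c b := mem_cent_singleton.1 h2
  exact mem_cent_singleton.2 (h1'.mul_right h2')

theorem eq_one_of_pow_coprime {s : G} {a b : ℕ} (ha : s ^ a = 1) (hb : s ^ b = 1)
    (h : a.Coprime b) : s = 1 := by
  have := mem_of_pow_mem_of_coprime (⊥ : Subgroup G) (x := s) (mem_bot.2 ha) (mem_bot.2 hb) h
  exact mem_bot.1 this

theorem pow_card_of_mem (H : Subgroup G) {s : G} (hs : s ∈ H) : s ^ Nat.card H = 1 := by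
  have h1 : (⟨s, hs⟩ : H) ^ Nat.card H = 1 := pow_card_eq_one'
  have h2 := congrArg Subtype.val h1
  rwa [Subgroup.coe_pow, Subgroup.coe_one] at h2

theorem conj_pow' (g w : G) (k : ℕ) : (g * w * g⁻¹) ^ k = g * w ^ k * g⁻¹ := conj_pow

/-- the hypotheses -/
structure Hyp (m n : ℕ) (x y : G) : Prop where
  hmn : n < m
  hn : 1 < n
  hcop : m.Coprime n
  htop : ∀ z : G, cind z ≤ m
  hsecond : ∀ z : G, cind z < m → cind z ≤ n
  hx : cind x = n
  hy : cind y = m

/-- the normal subgroup generated by the commutators of elements of class size prime to `m` -/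
def SS (G : Type*) [Group G] (m : ℕ) : Subgroup G :=
  normalClosure {s | ∃ w g : G, (cind w).Coprime m ∧ s = w⁻¹ * (g * w * g⁻¹)}

instance (m : ℕ) : (SS G m).Normal := normalClosure_normal

theorem gen_mem {m : ℕ} {w : G} (hw : (cind w).Coprime m) (g : G) :
    w⁻¹ * (g * w * g⁻¹) ∈ SS G m :=
  subset_normalClosure ⟨w, g, hw, rfl⟩

variable [Finite G] {m n : ℕ} {x y : G}

theorem SS_mul_conj (h : Hyp m n x y) {w : G} (hw : cind w = m) {s : G} (hs : s ∈ SS G m) :
    ∃ k : G, s * w = k * w * k⁻¹ := by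
  obtain ⟨L, hLn, -, hLm, hLg⟩ := exists_stab w
  have hle : SS G m ≤ L := by
    apply normalClosure_le_normal
    rintro _ ⟨v, g, hv, rfl⟩
    exact hLg v (hw ▸ hv) (hw ▸ h.htop _) g
  obtain ⟨k', hk'⟩ := hLm s (hle hs) 1
  exact ⟨k', by simpa using hk'⟩

theorem card_SS_dvd (h : Hyp m n x y) : Nat.card (SS G m) ∣ m := by
  obtain ⟨L, hLn, hLd, -, hLg⟩ := exists_stab y
  have hle : SS G m ≤ L := by
    apply normalClosure_le_normal
    rintro _ ⟨v, g, hv, rfl⟩
    exact hLg v (h.hy ▸ hv) (h.hy ▸ h.htop _) g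
  exact (card_dvd_of_le hle).trans (h.hy ▸ hLd)

theorem pow_m_eq_one (h : Hyp m n x y) {s : G} (hs : s ∈ SS G m) : s ^ m = 1 := by
  obtain ⟨c, hc⟩ := card_SS_dvd h
  have h2 : s ^ Nat.card (SS G m) = 1 := pow_card_of_mem _ hs
  rw [hc, pow_mul, h2, one_pow]

theorem SS_le_centralizer (h : Hyp m n x y) {w : G} (hw : (cind w).Coprime m) :
    SS G m ≤ centralizer ({w} : Set G) := by
  have h1 := relIndex_dvd_index_of_normal_right (centralizer ({w} : Set G)) (SS G m)
  have h2 : (centralizer ({w} : Set G)).relIndex (SS G m) ∣ m :=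
    (relIndex_dvd_card _ _).trans (card_SS_dvd h)
  exact relIndex_eq_one.1 (Nat.eq_one_of_dvd_coprimes hw h1 h2)

theorem SS_commute (h : Hyp m n x y) {w s : G} (hw : (cind w).Coprime m) (hs : s ∈ SS G m) :
    Commute s w := mem_cent_singleton.1 (SS_le_centralizer h hw hs)

theorem SS_comm (h : Hyp m n x y) {s t : G} (hs : s ∈ SS G m) (ht : t ∈ SS G m) : Commute s t := by
  have hle : SS G m ≤ centralizer (SS G m : Set G) := by
    apply normalClosure_le_normal
    rintro _ ⟨v, g, hv, rfl⟩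
    show _ ∈ centralizer (SS G m : Set G)
    rw [mem_centralizer_iff]
    intro r hr
    have h1 : Commute r v := SS_commute h hv hr
    have h2 : Commute r (g * v * g⁻¹) :=
      SS_commute h (by rw [cind, index_centralizer_conj]; exact hv) hr
    exact (h1.inv_right.mul_right h2)
  exact ((mem_centralizer_iff.1 (hle hs)) t ht).symm

/-- an element of class size and order prime to `m` is central -/
theorem central_of_coprime (h : Hyp m n x y) {w : G} (hw : (cind w).Coprime m) {o : ℕ}
    (ho : w ^ o = 1) (hom : o.Coprime m) : w ∈ center G := by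
  rw [mem_center_iff]
  intro g
  have hs := gen_mem hw g
  set s := w⁻¹ * (g * w * g⁻¹) with hsdef
  have hc : Commute s w := SS_commute h hw hs
  have e : g * w * g⁻¹ = w * s := by rw [hsdef, mul_inv_cancel_left]
  have h1 : (w * s) ^ o = 1 := by rw [← e, conj_pow', ho]; group
  rw [hc.symm.mul_pow, ho, one_mul] at h1
  have hs1 : s = 1 := eq_one_of_pow_coprime h1 (pow_m_eq_one h hs) hom
  rw [hs1, mul_one] at e
  calc g * w = g * w * g⁻¹ * g := by group
    _ = w * g := by rw [e]

/-- the order trick -/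
theorem eq_one_of_commute (h : Hyp m n x y) {w : G} (hw : cind w = m) {o : ℕ} (ho : w ^ o = 1)
    (hom : o.Coprime m) {s : G} (hs : s ∈ SS G m) (hc : Commute s w) : s = 1 := by
  obtain ⟨k, hk⟩ := SS_mul_conj h hw hs
  have h1 : (s * w) ^ o = 1 := by rw [hk, conj_pow', ho]; group
  rw [hc.mul_pow, ho, mul_one] at h1
  exact eq_one_of_pow_coprime h1 (pow_m_eq_one h hs) hom

/-- Claim 1 -/
theorem claim1 (h : Hyp m n x y) {w : G} (hwZ : w ∉ center G) (hw : (cind w).Coprime n) :
    cind w = m := by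
  by_contra hne
  have hlt : cind w < m := lt_of_le_of_ne (h.htop w) hne
  obtain ⟨L, hLn, hLd, hLm, hLg⟩ := exists_stab x
  have hcw : (cind w).Coprime (cind x) := by rw [h.hx]; exact hw
  have hle : cind (w * x) ≤ cind x := by
    have hd := cind_mul_dvd hcw
    have hne' : cind (w * x) ≠ m := by
      intro e
      rw [e, h.hx] at hd
      have := h.hcop.dvd_of_dvd_mul_right hd
      exact absurd (Nat.le_of_dvd (cind_pos w) this) (not_le.2 hlt)
    rw [h.hx]
    exact h.hsecond _ (lt_of_le_of_ne (h.htop _) hne')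
  apply hwZ
  rw [mem_center_iff]
  intro g
  have hk := hLg w hcw hle g
  set k := w⁻¹ * (g * w * g⁻¹) with hkdef
  have hxm : (cind x).Coprime m := by rw [h.hx]; exact h.hcop.symm
  have hkS : k ∈ SS G m := by
    obtain ⟨k', hk'⟩ := hLm k hk 1
    have e : k = x * (x⁻¹ * (k' * x * k'⁻¹)) * x⁻¹ := by
      have : k * x = k' * x * k'⁻¹ := by simpa using hk'
      calc k = k * x * x⁻¹ := by group
        _ = k' * x * k'⁻¹ * x⁻¹ := by rw [this]
        _ = _ := by group
    rw [e]
    exact (inferInstance : (SS G m).Normal).conj_mem _ (gen_mem hxm k') x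
  have hkn : k ^ n = 1 := by
    obtain ⟨c, hc⟩ := hLd
    have h2 : k ^ Nat.card L = 1 := pow_card_of_mem _ hk
    rw [← h.hx, hc, pow_mul, h2, one_pow]
  have hk1 : k = 1 := eq_one_of_pow_coprime (pow_m_eq_one h hkS) hkn h.hcop
  have e : g * w * g⁻¹ = w := by
    have : w * k = g * w * g⁻¹ := by rw [hkdef, mul_inv_cancel_left]
    rw [← this, hk1, mul_one]
  calc g * w = g * w * g⁻¹ * g := by group
    _ = w * g := by rw [e]

theorem coprime_orderOf {q : ℕ} (hq : q.Prime) {a b : G} {j : ℕ} (ha : a ^ (q ^ j) = 1)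
    (hb : ¬ q ∣ orderOf b) : (orderOf a).Coprime (orderOf b) :=
  Nat.Coprime.coprime_dvd_left (orderOf_dvd_of_pow_eq_one ha)
    (Nat.Coprime.pow_left j ((Nat.Prime.coprime_iff_not_dvd hq).2 hb))

theorem not_dvd_m (h : Hyp m n x y) {q : ℕ} (hq : q.Prime) (hqn : q ∣ n) : ¬ q ∣ m := by
  intro hqm
  have := Nat.eq_one_of_dvd_coprimes h.hcop hqm hqn
  exact hq.one_lt.ne' this

theorem qpow_coprime_m (h : Hyp m n x y) {q : ℕ} (hq : q.Prime) (hqn : q ∣ n) (j : ℕ) :
    (q ^ j).Coprime m :=
  Nat.Coprime.pow_left j ((Nat.Prime.coprime_iff_not_dvd hq).2 (not_dvd_m h hq hqn))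

/-- a noncentral `q`-element of class size `m` -/
theorem exists_u (h : Hyp m n x y) {q : ℕ} [hq : Fact q.Prime] (hqn : q ∣ n) :
    ∃ u : G, u ∉ center G ∧ (∃ j : ℕ, u ^ (q ^ j) = 1) ∧ cind u = m := by
  obtain ⟨Q⟩ : Nonempty (Sylow q G) := inferInstance
  obtain ⟨k, hk⟩ := exists_conj_mem_centralizer_sylow Q y
    (by show ¬ q ∣ cind y; rw [h.hy]; exact not_dvd_m h hq.out hqn)
  set y' := k * y * k⁻¹ with hy'
  have hy'm : cind y' = m := by rw [cind, hy', index_centralizer_conj]; exact h.hy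
  obtain ⟨v, hvQ, hvx⟩ := exists_mem_sylow_not_mem (centralizer ({x} : Set G))
    (by show q ∣ cind x; rw [h.hx]; exact hqn) Q
  have hvZ : v ∉ center G := by
    intro hv
    apply hvx
    rw [mem_cent_singleton]
    exact (mem_center_iff.1 hv x).symm
  have hvy : Commute v y' := (mem_centralizer_iff.1 hk) v hvQ
  obtain ⟨jv, hjv⟩ : ∃ j : ℕ, v ^ (q ^ j) = 1 := by
    obtain ⟨j, hj⟩ := Q.2 ⟨v, hvQ⟩
    refine ⟨j, ?_⟩
    have := congrArg Subtype.val hj
    rwa [Subgroup.coe_pow, Subgroup.coe_one] at this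
  obtain ⟨a, b, hab, ⟨j, hj⟩, hb⟩ := exists_p_decomp q y'
  by_cases hc : y' ^ a ∈ center G
  · refine ⟨v, hvZ, ⟨jv, hjv⟩, ?_⟩
    have hcomm : Commute v (y' ^ b) := hvy.pow_right b
    have hC := centralizer_mul_of_coprime hcomm (coprime_orderOf hq.out hjv hb)
    have h1 : cind y' ∣ cind (v * y' ^ b) := by
      apply index_dvd_of_le
      rw [hC]
      rintro c ⟨-, h2⟩
      have h2' : Commute c (y' ^ b) := mem_cent_singleton.1 h2
      have h3 : Commute c (y' ^ a) := (mem_center_iff.1 hc c)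
      have := h3.mul_right h2'
      rw [hab] at this
      exact mem_cent_singleton.2 this
    have h2 : cind (v * y' ^ b) = m :=
      le_antisymm (h.htop _) (hy'm ▸ Nat.le_of_dvd (cind_pos _) h1)
    have h3 : cind v ∣ m := by
      rw [← h2]
      apply index_dvd_of_le
      rw [hC]
      exact inf_le_left
    exact claim1 h hvZ (h.hcop.coprime_dvd_left h3)
  · refine ⟨y' ^ a, hc, ⟨j, hj⟩, ?_⟩
    have h3 : cind (y' ^ a) ∣ m := hy'm ▸ cind_pow_dvd y' a
    exact claim1 h hc (h.hcop.coprime_dvd_left h3)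

/-- no noncentral `q`-element commutes with `x` -/
theorem D1 (h : Hyp m n x y) {q : ℕ} [hq : Fact q.Prime] (hqn : q ∣ n) {b : G} {j : ℕ}
    (hbq : b ^ (q ^ j) = 1) (hbx : Commute b x) : b ∈ center G := by
  obtain ⟨a', b', hab, ⟨j', hj'⟩, hb'⟩ := exists_p_decomp q x
  have hxa : x ^ a' ∈ center G := by
    apply central_of_coprime h _ hj' (qpow_coprime_m h hq.out hqn j')
    exact (h.hcop.symm.coprime_dvd_left (h.hx ▸ cind_pow_dvd x a'))
  have hcomm : Commute b (x ^ b') := hbx.pow_right b'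
  have hC := centralizer_mul_of_coprime hcomm (coprime_orderOf hq.out hbq hb')
  have h1 : n ∣ cind (b * x ^ b') := by
    rw [← h.hx]
    apply index_dvd_of_le
    rw [hC]
    rintro c ⟨-, h2⟩
    have h2' : Commute c (x ^ b') := mem_cent_singleton.1 h2
    have h3 : Commute c (x ^ a') := (mem_center_iff.1 hxa c)
    have := h3.mul_right h2'
    rw [hab] at this
    exact mem_cent_singleton.2 this
  have hne : cind (b * x ^ b') ≠ m := by
    intro e
    rw [e] at h1
    have := Nat.eq_one_of_dvd_coprimes h.hcop h1 dvd_rfl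
    exact h.hn.ne' this
  have h2 : cind (b * x ^ b') = n :=
    le_antisymm (h.hsecond _ (lt_of_le_of_ne (h.htop _) hne)) (Nat.le_of_dvd (cind_pos _) h1)
  have h3 : cind b ∣ n := by
    rw [← h2]
    apply index_dvd_of_le
    rw [hC]
    exact inf_le_left
  exact central_of_coprime h (h.hcop.symm.coprime_dvd_left h3) hbq (qpow_coprime_m h hq.out hqn j)

theorem inf_le_center (h : Hyp m n x y) {q : ℕ} [hq : Fact q.Prime] (hqn : q ∣ n) {u : G}
    (huZ : u ∉ center G) {j : ℕ} (huq : u ^ (q ^ j) = 1) (hum : cind u = m) {l : G}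
    (hlu : Commute l u) (hlx : Commute l x) : l ∈ center G := by
  by_contra hl
  obtain ⟨a, b, hab, ⟨ja, hja⟩, hb⟩ := exists_p_decomp q l
  have h1 : l ^ a ∈ center G := D1 h hqn hja (hlx.pow_left a)
  have h2 : l ^ b ∉ center G := by
    intro h2
    apply hl
    rw [← hab]
    exact (center G).mul_mem h1 h2
  have hcomm : Commute u (l ^ b) := (hlu.pow_left b).symm
  have hC := centralizer_mul_of_coprime hcomm (coprime_orderOf hq.out huq hb)
  have h3 : cind (u * l ^ b) = m := by
    apply le_antisymm (h.htop _)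
    rw [← hum]
    apply Nat.le_of_dvd (cind_pos _)
    apply index_dvd_of_le
    rw [hC]
    exact inf_le_left
  have h4 : cind (l ^ b) ∣ m := by
    rw [← h3]
    apply index_dvd_of_le
    rw [hC]
    exact inf_le_right
  have h5 : cind (l ^ b) = m := claim1 h h2 (h.hcop.coprime_dvd_left h4)
  have h6 : centralizer ({l ^ b} : Set G) ≤ centralizer ({u * l ^ b} : Set G) :=
    le_of_le_of_index_eq (by rw [hC]; exact inf_le_right) (h3.trans h5.symm)
  have h7 : x ∈ centralizer ({u * l ^ b} : Set G) :=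
    h6 (mem_cent_singleton.2 (hlx.pow_left b).symm)
  rw [hC] at h7
  have h8 : Commute x u := mem_cent_singleton.1 h7.1
  exact huZ (D1 h hqn huq h8.symm)

theorem index_center (h : Hyp m n x y) : (center G).index = m * n := by
  obtain ⟨q, hq, hqn⟩ := Nat.exists_prime_and_dvd h.hn.ne'
  have : Fact q.Prime := ⟨hq⟩
  obtain ⟨u, huZ, ⟨j, huq⟩, hum⟩ := exists_u h hqn
  have e : center G = centralizer ({u} : Set G) ⊓ centralizer ({x} : Set G) := by
    apply le_antisymm
    · intro z hz
      exact ⟨mem_cent_singleton.2 (mem_center_iff.1 hz u).symm,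
        mem_cent_singleton.2 (mem_center_iff.1 hz x).symm⟩
    · rintro l ⟨h1, h2⟩
      exact inf_le_center h hqn huZ huq hum (mem_cent_singleton.1 h1) (mem_cent_singleton.1 h2)
  rw [e, index_inf_of_coprime]
  · show cind u * cind x = _
    rw [hum, h.hx]
  · show (cind u).Coprime (cind x)
    rw [hum, h.hx]
    exact h.hcop

theorem center_le_inf (a b : G) :
    center G ≤ centralizer ({a} : Set G) ⊓ centralizer ({b} : Set G) := by
  intro z hz
  exact ⟨mem_cent_singleton.2 (mem_center_iff.1 hz a).symm,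
    mem_cent_singleton.2 (mem_center_iff.1 hz b).symm⟩

/-- elements commuting with a class-`m` and a class-`n` element are central -/
theorem lemmaZ (h : Hyp m n x y) {a b g : G} (ha : cind a = m) (hb : cind b = n)
    (hga : Commute g a) (hgb : Commute g b) : g ∈ center G := by
  have h1 : (centralizer ({a} : Set G) ⊓ centralizer ({b} : Set G)).index = m * n := by
    rw [index_inf_of_coprime]
    · show cind a * cind b = _
      rw [ha, hb]
    · show (cind a).Coprime (cind b)
      rw [ha, hb]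
      exact h.hcop
  exact le_of_le_of_index_eq (center_le_inf a b) ((index_center h).trans h1.symm)
    ⟨mem_cent_singleton.2 hga, mem_cent_singleton.2 hgb⟩

theorem le_of_inf_le_center (h : Hyp m n x y) {a b : G}
    (hle : ∀ g : G, Commute g a → Commute g b → g ∈ center G) : m * n ≤ cind a * cind b := by
  have h1 : centralizer ({a} : Set G) ⊓ centralizer ({b} : Set G) ≤ center G := by
    rintro g ⟨h1, h2⟩
    exact hle g (mem_cent_singleton.1 h1) (mem_cent_singleton.1 h2)
  have h2 := index_dvd_of_le h1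
  rw [index_center h] at h2
  exact (Nat.le_of_dvd (Nat.pos_of_ne_zero index_ne_zero_of_finite) h2).trans index_inf_le

/-- the class sizes are `1`, `n`, `m` -/
theorem cover (h : Hyp m n x y) (g : G) : g ∈ center G ∨ cind g = n ∨ cind g = m := by
  obtain ⟨q, hq, hqn⟩ := Nat.exists_prime_and_dvd h.hn.ne'
  have : Fact q.Prime := ⟨hq⟩
  obtain ⟨u, huZ, ⟨j, huq⟩, hum⟩ := exists_u h hqn
  have hxm : (cind x).Coprime m := by rw [h.hx]; exact h.hcop.symm
  have hqm := qpow_coprime_m h hq hqn j
  have hSn : (SS G m).Normal := inferInstance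
  -- the regular vector
  set k₀ := x⁻¹ * (u * x * u⁻¹) with hk₀
  have hk₀S : k₀ ∈ SS G m := gen_mem hxm u
  have stepE : ∀ l : G, Commute l u → Commute l k₀ → l ∈ center G := by
    intro l hlu hlk
    apply inf_le_center h hqn huZ huq hum hlu
    have hκ := gen_mem hxm l
    set κ := x⁻¹ * (l * x * l⁻¹) with hκdef
    have e1 : l * x * l⁻¹ = x * κ := by rw [hκdef, mul_inv_cancel_left]
    have hκ' : u * κ * u⁻¹ ∈ SS G m := hSn.conj_mem _ hκ u
    have e2 : l * k₀ * l⁻¹ = κ⁻¹ * k₀ * (u * κ * u⁻¹) := by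
      have : l * k₀ * l⁻¹ = (l * x * l⁻¹)⁻¹ * ((l * u * l⁻¹) * (l * x * l⁻¹) * (l * u * l⁻¹)⁻¹) := by
        rw [hk₀]; group
      have hu' : l * u * l⁻¹ = u := by rw [hlu.eq, mul_inv_cancel_right]
      rw [this, hu', e1, hk₀]
      group
    have e3 : l * k₀ * l⁻¹ = k₀ := by rw [hlk.eq, mul_inv_cancel_right]
    have e4 : κ⁻¹ * k₀ = k₀ * κ⁻¹ := (SS_comm h ((SS G m).inv_mem hκ) hk₀S).eq
    rw [e3, e4, mul_assoc] at e2
    have e5 : κ⁻¹ * (u * κ * u⁻¹) = 1 := by
      have := mul_left_cancel (a := k₀) (b := 1) (c := κ⁻¹ * (u * κ * u⁻¹)) (by rw [mul_one]; exact e2)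
      exact this.symm
    have e6 : u * κ * u⁻¹ = κ := by
      have := congrArg (fun z => κ * z) e5
      simpa using this
    have hcκ : Commute κ u := by
      have : u * κ = κ * u := by
        calc u * κ = u * κ * u⁻¹ * u := by group
          _ = κ * u := by rw [e6]
      exact this.symm
    have hκ1 : κ = 1 := eq_one_of_commute h hum huq hqm hκ hcκ
    rw [hκ1, mul_one] at e1
    have : l * x = x * l := by
      calc l * x = l * x * l⁻¹ * l := by group
        _ = x * l := by rw [e1]
    exact this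
  -- elements of `C(u)` have class size `m`
  have stepF : ∀ g : G, Commute g u → g ∉ center G → cind g = m := by
    intro g hgu hgZ
    set hh := g * k₀ with hhdef
    have F1 : ∀ l : G, Commute l hh → Commute l u → l ∈ center G := by
      intro l hlh hlu
      apply stepE l hlu
      have e1 : (l * g * l⁻¹) * (l * k₀ * l⁻¹) = g * k₀ := by
        have : l * hh * l⁻¹ = hh := by rw [hlh.eq, mul_inv_cancel_right]
        rw [hhdef] at this
        rw [← this]; group
      have e2 : g⁻¹ * (l * g * l⁻¹) = k₀ * (l * k₀ * l⁻¹)⁻¹ := by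
        calc g⁻¹ * (l * g * l⁻¹) = g⁻¹ * ((l * g * l⁻¹) * (l * k₀ * l⁻¹)) * (l * k₀ * l⁻¹)⁻¹ := by
              group
          _ = g⁻¹ * (g * k₀) * (l * k₀ * l⁻¹)⁻¹ := by rw [e1]
          _ = _ := by group
      have hsS : k₀ * (l * k₀ * l⁻¹)⁻¹ ∈ SS G m :=
        (SS G m).mul_mem hk₀S ((SS G m).inv_mem (hSn.conj_mem _ hk₀S l))
      have hsu : Commute (k₀ * (l * k₀ * l⁻¹)⁻¹) u := by
        rw [← e2]
        exact (hgu.inv_left).mul_left ((hlu.mul_left hgu).mul_left hlu.inv_left)
      have hs1 := eq_one_of_commute h hum huq hqm hsS hsu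
      have e3 : l * k₀ * l⁻¹ = k₀ := by
        have := mul_inv_eq_one.1 hs1
        exact this.symm
      have : l * k₀ = k₀ * l := by
        calc l * k₀ = l * k₀ * l⁻¹ * l := by group
          _ = k₀ * l := by rw [e3]
      exact this
    have F2 : n ≤ cind hh := by
      have := le_of_inf_le_center h F1
      rw [hum, mul_comm m n, mul_comm (cind hh) m] at this
      have h0 : 0 < m := Nat.zero_lt_of_lt h.hmn
      rw [mul_comm n m] at this
      exact Nat.le_of_mul_le_mul_left this h0
    have F3 : cind hh = m := by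
      by_contra hne
      have hle := h.hsecond _ (lt_of_le_of_ne (h.htop _) hne)
      have heq : cind hh = n := le_antisymm hle F2
      have hc : Commute k₀ hh := SS_commute h (by rw [heq]; exact h.hcop.symm) hk₀S
      apply hgZ
      apply stepE g hgu
      have : k₀ * g * k₀ = g * k₀ * k₀ := by
        have := hc.eq
        rw [hhdef] at this
        rw [← mul_assoc] at this
        exact this
      exact (mul_right_cancel this).symm
    obtain ⟨k, hk⟩ := SS_mul_conj h F3 (hSn.conj_mem _ ((SS G m).inv_mem hk₀S) hh)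
    have e : g = k * hh * k⁻¹ := by
      rw [← hk, hhdef]; group
    rw [e, cind, index_centralizer_conj]
    exact F3
  have hm0 : 0 < m := Nat.zero_lt_of_lt h.hmn
  have hn0 : 0 < n := lt_trans Nat.zero_lt_one h.hn
  -- an element of small class size commutes with a noncentral element of `C(u)`
  have small : ∀ g : G, cind g < n → ∃ l : G, Commute l g ∧ Commute l u ∧ l ∉ center G := by
    intro g hg
    by_contra hcon
    push Not at hcon
    have := le_of_inf_le_center h (a := g) (b := u) hcon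
    rw [hum, mul_comm m n] at this
    exact absurd (Nat.le_of_mul_le_mul_right this hm0) (not_le.2 hg)
  -- noncentral elements of `C(x)` have class size `n`
  have stepG : ∀ t : G, Commute t x → t ∉ center G → cind t = n := by
    intro t htx htZ
    have h1 : cind t ≠ m := fun e => htZ (lemmaZ h e h.hx (Commute.refl t) htx)
    have h2 := h.hsecond _ (lt_of_le_of_ne (h.htop _) h1)
    by_contra hne
    obtain ⟨l, hlt, hlu, hlZ⟩ := small t (lt_of_le_of_ne h2 hne)
    exact htZ (lemmaZ h (stepF l hlu hlZ) h.hx hlt.symm htx)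
  by_cases hgZ : g ∈ center G
  · exact Or.inl hgZ
  by_cases hgm : cind g = m
  · exact Or.inr (Or.inr hgm)
  have h2 := h.hsecond _ (lt_of_le_of_ne (h.htop _) hgm)
  by_cases hgn : cind g = n
  · exact Or.inr (Or.inl hgn)
  exfalso
  obtain ⟨l, hlg, hlu, hlZ⟩ := small g (lt_of_le_of_ne h2 hgn)
  have : ∃ t : G, Commute t g ∧ Commute t x ∧ t ∉ center G := by
    by_contra hcon
    push Not at hcon
    have := le_of_inf_le_center h (a := g) (b := x) hcon
    rw [h.hx] at this
    have h3 := Nat.le_of_mul_le_mul_right this hn0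
    exact hgm (le_antisymm (h.htop _) h3)
  obtain ⟨t, htg, htx, htZ⟩ := this
  exact hgZ (lemmaZ h (stepF l hlu hlZ) (stepG t htx htZ) hlg.symm htg.symm)

end Cfsg.Agent.Lib.Helper59.TopTwo
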