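import Mathlib
import Cfsg.Agent.Lib.Helper53.Hup.Defs

/-!
# Piece GT1 of Huppert's theorem: the commutator pairing bound
-/

set_option autoImplicit false

namespace Cfsg.Agent.Lib.Helper59.HupGT1

/-- For a bimultiplicative pairing of finite groups into `ℂˣ`, the two "ranks" are comparable. -/
theorem pairing_abstract {P Q : Type*} [Group P] [Group Q] [Finite P] [Finite Q]
    (b : P →* (Q →* ℂˣ)) : b.ker.index ≤ (b.flip).ker.index := by
  classical
  let H : Subgroup (P →* ℂˣ) := b.flip.range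
  have hHfin : Finite H := by
    have : Finite (Set.range b.flip) := Set.finite_range _ |>.to_subtype
    exact this
  let ev : P →* (H →* ℂˣ) :=
    { toFun := fun g =>
        { toFun := fun h => (h : P →* ℂˣ) g
          map_one' := rfl
          map_mul' := fun _ _ => rfl }
      map_one' := by ext h; simp
      map_mul' := by intro x y; ext h; simp }
  have hker : ev.ker = b.ker := by
    ext g
    rw [MonoidHom.mem_ker, MonoidHom.mem_ker]
    constructor
    · intro h
      ext l
      have := DFunLike.congr_fun h ⟨b.flip l, l, rfl⟩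
      simpa [ev] using congrArg Units.val this
    · intro h
      ext ⟨_, l, rfl⟩
      have := DFunLike.congr_fun h l
      simpa [ev] using congrArg Units.val this
  rw [← hker, Subgroup.index_ker, Subgroup.index_ker]
  have h1 : Nat.card (H →* ℂˣ) = Nat.card H :=
    CommGroup.card_monoidHom_of_hasEnoughRootsOfUnity H ℂ
  calc Nat.card ev.range ≤ Nat.card (H →* ℂˣ) :=
        Nat.card_le_card_of_injective _ Subtype.val_injective
    _ = Nat.card H := h1

/-- A finite cyclic group embeds in `ℂˣ`. -/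
theorem exists_embedding_of_cyclic (A : Type*) [Group A] [Finite A] [IsCyclic A] :
    ∃ ι : A →* ℂˣ, Function.Injective ι := by
  have hn : NeZero (Nat.card A) := ⟨Nat.card_pos.ne'⟩
  have hc : Nat.card A = Nat.card (rootsOfUnity (Nat.card A) ℂ) :=
    (Complex.card_rootsOfUnity _).symm
  let e : A ≃* rootsOfUnity (Nat.card A) ℂ := mulEquivOfCyclicCardEq hc
  exact ⟨(rootsOfUnity (Nat.card A) ℂ).subtype.comp e.toMonoidHom,
    Subtype.val_injective.comp e.injective⟩

theorem pairing_bound {G : Type*} [Group G] [Finite G] (A P Q : Subgroup G) (hA : IsCyclic A)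
    (hPQ : ∀ g ∈ P, ∀ l ∈ Q, g * l * g⁻¹ * l⁻¹ ∈ A)
    (hPA : ∀ g ∈ P, ∀ a ∈ A, g * a = a * g) (hQA : ∀ l ∈ Q, ∀ a ∈ A, l * a = a * l) :
    (Subgroup.centralizer (Q : Set G)).relIndex P ≤ (Subgroup.centralizer (P : Set G)).relIndex Q := by
  classical
  obtain ⟨ι, hι⟩ := exists_embedding_of_cyclic A
  -- the commutator as an element of `A`
  let c : P → Q → A := fun g l => ⟨(g : G) * l * (g : G)⁻¹ * (l : G)⁻¹, hPQ g g.2 l l.2⟩
  have hc_mul_right : ∀ (g : P) (l l' : Q), c g (l * l') = c g l * c g l' := by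
    intro g l l'
    apply Subtype.ext
    have h := hQA l l.2 _ (hPQ g g.2 l' l'.2)
    show (g : G) * ((l : G) * l') * (g : G)⁻¹ * ((l : G) * l')⁻¹
      = ((g : G) * l * (g : G)⁻¹ * (l : G)⁻¹) * ((g : G) * l' * (g : G)⁻¹ * (l' : G)⁻¹)
    calc (g : G) * ((l : G) * l') * (g : G)⁻¹ * ((l : G) * l')⁻¹
        = (g : G) * l * (g : G)⁻¹ * (((g : G) * l' * (g : G)⁻¹ * (l' : G)⁻¹) * (l : G)⁻¹) := by group
      _ = (g : G) * l * (g : G)⁻¹ * ((l : G)⁻¹ * ((l : G) * ((g : G) * l' * (g : G)⁻¹ * (l' : G)⁻¹)) * (l : G)⁻¹) := by group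
      _ = (g : G) * l * (g : G)⁻¹ * ((l : G)⁻¹ * (((g : G) * l' * (g : G)⁻¹ * (l' : G)⁻¹) * (l : G)) * (l : G)⁻¹) := by rw [h]
      _ = _ := by group
  have hc_mul_left : ∀ (g g' : P) (l : Q), c (g * g') l = c g l * c g' l := by
    intro g g' l
    apply Subtype.ext
    have h := hPA g g.2 _ (hPQ g' g'.2 l l.2)
    show ((g : G) * g') * (l : G) * ((g : G) * g')⁻¹ * (l : G)⁻¹
      = ((g : G) * l * (g : G)⁻¹ * (l : G)⁻¹) * ((g' : G) * l * (g' : G)⁻¹ * (l : G)⁻¹)
    calc ((g : G) * g') * (l : G) * ((g : G) * g')⁻¹ * (l : G)⁻¹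
        = ((g : G) * ((g' : G) * l * (g' : G)⁻¹ * (l : G)⁻¹)) * (l * (g : G)⁻¹ * (l : G)⁻¹) := by group
      _ = (((g' : G) * l * (g' : G)⁻¹ * (l : G)⁻¹) * (g : G)) * (l * (g : G)⁻¹ * (l : G)⁻¹) := by rw [h]
      _ = ((g' : G) * l * (g' : G)⁻¹ * (l : G)⁻¹) * ((g : G) * l * (g : G)⁻¹ * (l : G)⁻¹) := by group
      _ = _ := by
        have hcomm : ∀ a ∈ A, ∀ a' ∈ A, a * a' = a' * a := by
          intro a ha a' ha'
          have := (IsCyclic.commGroup (α := A)).mul_comm ⟨a, ha⟩ ⟨a', ha'⟩
          exact congrArg Subtype.val this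
        exact hcomm _ (hPQ g' g'.2 l l.2) _ (hPQ g g.2 l l.2)
  have hc_one_right : ∀ g : P, c g 1 = 1 := by
    intro g; apply Subtype.ext; simp [c]
  have hc_one_left : ∀ l : Q, c 1 l = 1 := by
    intro l; apply Subtype.ext; simp [c]
  let b : P →* (Q →* ℂˣ) :=
    { toFun := fun g =>
        { toFun := fun l => ι (c g l)
          map_one' := by rw [hc_one_right, map_one]
          map_mul' := fun l l' => by rw [hc_mul_right, map_mul] }
      map_one' := by
        ext l
        simp [hc_one_left]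
      map_mul' := by
        intro g g'
        ext l
        simp [hc_mul_left] }
  have hb : ∀ g l, b g l = ι (c g l) := fun _ _ => rfl
  have hone : ∀ (g : P) (l : Q), b g l = 1 ↔ (g : G) * l = l * g := by
    intro g l
    rw [hb, ← map_one ι, hι.eq_iff, Subtype.ext_iff]
    show (g : G) * l * (g : G)⁻¹ * (l : G)⁻¹ = 1 ↔ _
    constructor
    · intro h
      calc (g : G) * l = ((g : G) * l * (g : G)⁻¹ * (l : G)⁻¹) * (l * g) := by group
        _ = l * g := by rw [h, one_mul]
    · intro h
      rw [h]; group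
  have hk1 : b.ker = (Subgroup.centralizer (Q : Set G)).subgroupOf P := by
    ext g
    rw [MonoidHom.mem_ker, Subgroup.mem_subgroupOf, Subgroup.mem_centralizer_iff]
    constructor
    · intro h l hl
      have := (hone g ⟨l, hl⟩).1 (by rw [h]; rfl)
      exact this.symm
    · intro h
      ext l
      have := (hone g l).2 (h l l.2).symm
      rw [this]; rfl
  have hk2 : b.flip.ker = (Subgroup.centralizer (P : Set G)).subgroupOf Q := by
    ext l
    rw [MonoidHom.mem_ker, Subgroup.mem_subgroupOf, Subgroup.mem_centralizer_iff]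
    constructor
    · intro h g hg
      have h' : b ⟨g, hg⟩ l = 1 := by
        have := DFunLike.congr_fun h ⟨g, hg⟩
        simpa using this
      exact (hone ⟨g, hg⟩ l).1 h'
    · intro h
      ext g
      have := (hone g l).2 (h g g.2)
      rw [MonoidHom.flip_apply, this]; rfl
  have := pairing_abstract b
  rw [hk1, hk2] at this
  exact this

end Cfsg.Agent.Lib.Helper59.HupGT1
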