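import Mathlib
import Cfsg.Agent.Lib.Helper53.Hup.Defs
import Cfsg.Agent.Lib.Helper59.HupGT1

/-!
# Piece GT2 of Huppert's theorem: symplectic pairs have square index
-/

set_option autoImplicit false

namespace Cfsg.Agent.Lib.Helper59.HupGT2

open Cfsg.Agent.Lib.Helper53.Hup Cfsg.Agent.Lib.Helper59.HupGT1

theorem SympPair.square {G : Type*} [Group G] [Finite G] {A N : Subgroup G} (h : SympPair A N)
    (hA : IsCyclic A) :
    ∃ E : ℕ, A.relIndex N = E ^ 2 := by
  classical
  have hAcomm : ∀ a ∈ A, ∀ a' ∈ A, a * a' = a' * a := fun a ha a' ha' =>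
    h.central a ha a' (h.le ha')
  let S : Set (Subgroup G) := {B | A ≤ B ∧ B ≤ N ∧ ∀ x ∈ B, ∀ y ∈ B, x * y = y * x}
  have hSfin : S.Finite := Set.toFinite S
  have hSne : S.Nonempty := ⟨A, le_rfl, h.le, hAcomm⟩
  obtain ⟨B, hB⟩ := hSfin.exists_maximal hSne
  obtain ⟨hAB, hBN, hBc⟩ := hB.prop
  -- `C_N(B) = B`
  have hCB : Subgroup.centralizer (B : Set G) ⊓ N = B := by
    apply le_antisymm
    · intro l hl
      obtain ⟨hl1, hl2⟩ := Subgroup.mem_inf.1 hl
      let D : Subgroup G := B ⊔ Subgroup.zpowers l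
      have hBB : B ≤ Subgroup.centralizer (B : Set G) := by
        intro x hx
        rw [Subgroup.mem_centralizer_iff]
        intro y hy
        exact hBc y hy x hx
      have hlB : Subgroup.zpowers l ≤ Subgroup.centralizer (B : Set G) := by
        rw [Subgroup.zpowers_le]; exact hl1
      have hll : Subgroup.zpowers l ≤ Subgroup.centralizer (Subgroup.zpowers l : Set G) := by
        intro x hx
        rw [Subgroup.mem_centralizer_iff]
        intro y hy
        obtain ⟨i, rfl⟩ := Subgroup.mem_zpowers_iff.1 hx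
        obtain ⟨j, rfl⟩ := Subgroup.mem_zpowers_iff.1 hy
        rw [← zpow_add, ← zpow_add, add_comm]
      have hBl : B ≤ Subgroup.centralizer (Subgroup.zpowers l : Set G) :=
        Subgroup.le_centralizer_iff.1 hlB
      have hD1 : D ≤ Subgroup.centralizer (B : Set G) := sup_le hBB hlB
      have hD2 : D ≤ Subgroup.centralizer (Subgroup.zpowers l : Set G) := sup_le hBl hll
      have hDD : D ≤ Subgroup.centralizer (D : Set G) :=
        sup_le (Subgroup.le_centralizer_iff.1 hD1) (Subgroup.le_centralizer_iff.1 hD2)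
      have hDS : D ∈ S := by
        refine ⟨hAB.trans le_sup_left, sup_le hBN (by rw [Subgroup.zpowers_le]; exact hl2), ?_⟩
        intro x hx y hy
        exact (Subgroup.mem_centralizer_iff.1 (hDD hy) x hx)
      have : D ≤ B := hB.le_of_ge hDS le_sup_left
      exact this ((le_sup_right : Subgroup.zpowers l ≤ D) (Subgroup.mem_zpowers l))
    · intro x hx
      refine Subgroup.mem_inf.2 ⟨?_, hBN hx⟩
      rw [Subgroup.mem_centralizer_iff]
      intro y hy
      exact hBc y hy x hx
  -- `C_B(N) = A`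
  have hCN : Subgroup.centralizer (N : Set G) ⊓ B = A := by
    apply le_antisymm
    · intro l hl
      obtain ⟨hl1, hl2⟩ := Subgroup.mem_inf.1 hl
      apply h.center l (hBN hl2)
      intro l' hl'
      exact (Subgroup.mem_centralizer_iff.1 hl1 l' hl').symm
    · intro a ha
      refine Subgroup.mem_inf.2 ⟨?_, hAB ha⟩
      rw [Subgroup.mem_centralizer_iff]
      intro l hl
      exact (h.central a ha l hl).symm
  have h1 := pairing_bound A N B hA (fun g hg l hl => h.comm g hg l (hBN hl))
    (fun g hg a ha => (h.central a ha g hg).symm)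
    (fun l hl a ha => (h.central a ha l (hBN hl)).symm)
  have h2 := pairing_bound A B N hA (fun g hg l hl => h.comm g (hBN hg) l hl)
    (fun l hl a ha => (h.central a ha l (hBN hl)).symm)
    (fun g hg a ha => (h.central a ha g hg).symm)
  rw [← Subgroup.inf_relIndex_right, hCB, ← Subgroup.inf_relIndex_right (Subgroup.centralizer _) B,
    hCN] at h1
  rw [← Subgroup.inf_relIndex_right, hCN, ← Subgroup.inf_relIndex_right (Subgroup.centralizer _) N,
    hCB] at h2
  refine ⟨A.relIndex B, ?_⟩
  rw [← Subgroup.relIndex_mul_relIndex A B N hAB hBN, le_antisymm h1 h2, sq]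

theorem SympPair.prime_dvd {G : Type*} [Group G] [Finite G] {A N : Subgroup G} (h : SympPair A N)
    {r : ℕ} (hr : r.Prime) (hd : r ∣ A.relIndex N) : r ∣ Nat.card A := by
  classical
  have hrf : Fact r.Prime := ⟨hr⟩
  have hnorm : (A.subgroupOf N).Normal := by
    constructor
    intro a ha g
    rw [Subgroup.mem_subgroupOf] at ha ⊢
    have : ((g * a * g⁻¹ : N) : G) = a := by
      have h1 := h.central a ha g g.2
      show (g : G) * a * (g : G)⁻¹ = a
      rw [← h1]; group
    rw [this]; exact ha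
  have hd' : r ∣ Nat.card (N ⧸ A.subgroupOf N) := by
    rw [← Subgroup.index_eq_card]; exact hd
  obtain ⟨x, hx⟩ := exists_prime_orderOf_dvd_card' r hd'
  obtain ⟨l, rfl⟩ := QuotientGroup.mk_surjective x
  have hl1 : (l : G) ∉ A := by
    intro hl
    have : (QuotientGroup.mk l : N ⧸ A.subgroupOf N) = 1 :=
      (QuotientGroup.eq_one_iff l).2 (Subgroup.mem_subgroupOf.2 hl)
    rw [this, orderOf_one] at hx
    exact hr.one_lt.ne hx
  have hl2 : (l : G) ^ r ∈ A := by
    have : (QuotientGroup.mk (l ^ r) : N ⧸ A.subgroupOf N) = 1 := by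
      rw [QuotientGroup.mk_pow, ← hx, pow_orderOf_eq_one]
    have := (QuotientGroup.eq_one_iff (l ^ r)).1 this
    simpa [Subgroup.mem_subgroupOf] using this
  obtain ⟨l', hl', hne⟩ : ∃ l' ∈ N, (l : G) * l' ≠ l' * l := by
    by_contra hcon
    push Not at hcon
    exact hl1 (h.center l l.2 hcon)
  set c : G := (l : G) * l' * (l : G)⁻¹ * l'⁻¹ with hc
  have hcA : c ∈ A := h.comm l l.2 l' hl'
  have hc1 : c ≠ 1 := by
    intro h1
    apply hne
    calc (l : G) * l' = c * (l' * l) := by rw [hc]; group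
      _ = l' * l := by rw [h1, one_mul]
  have hpow : ∀ k : ℕ, (l : G) ^ k * l' * ((l : G) ^ k)⁻¹ * l'⁻¹ = c ^ k := by
    intro k
    induction k with
    | zero => simp
    | succ k ih =>
      have hck : c ^ k * (l : G) = l * c ^ k := h.central _ (A.pow_mem hcA k) l l.2
      calc (l : G) ^ (k + 1) * l' * ((l : G) ^ (k + 1))⁻¹ * l'⁻¹
          = l * ((l : G) ^ k * l' * ((l : G) ^ k)⁻¹ * l'⁻¹) * (l' * (l : G)⁻¹ * l'⁻¹) := by
            rw [pow_succ']; group
        _ = (l * c ^ k) * (l' * (l : G)⁻¹ * l'⁻¹) := by rw [ih]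
        _ = (c ^ k * l) * (l' * (l : G)⁻¹ * l'⁻¹) := by rw [hck]
        _ = c ^ k * c := by rw [hc]; group
        _ = c ^ (k + 1) := (pow_succ c k).symm
  have hcr : c ^ r = 1 := by
    rw [← hpow r, h.central _ hl2 l' hl']
    group
  have hord : orderOf (⟨c, hcA⟩ : A) = r := by
    apply orderOf_eq_prime
    · apply Subtype.ext; simpa using hcr
    · intro h1; exact hc1 (congrArg Subtype.val h1)
  rw [← hord]
  exact orderOf_dvd_natCard _

end Cfsg.Agent.Lib.Helper59.HupGT2
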