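import Mathlib
import Cfsg.Agent.Lib.Helper53.Hup.Defs

/-!
# Piece GT3 of Huppert's theorem: the centralizer of a coprime automorphism in a symplectic pair
-/

set_option autoImplicit false

namespace Cfsg.Agent.Lib.Helper59.HupGT3

open Cfsg.Agent.Lib.Helper53.Hup

theorem SympPair.centralizer_le {G : Type*} [Group G] {A N : Subgroup G} (h : SympPair A N)
    {x : G} {s : ℕ}
    (hxs : x ^ s = 1) (hxN : ∀ l ∈ N, x * l * x⁻¹ ∈ N) (hxA : ∀ a ∈ A, x * a = a * x)
    (hsA : ∀ a ∈ A, a ^ s = 1 → a = 1)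
    (hCx : ∀ l ∈ N, ∀ l' ∈ N, x * l = l * x → x * l' = l' * x → l * l' = l' * l) :
    ∀ l ∈ N, x * l = l * x → l ∈ A := by
  intro d hd hdx
  apply h.center d hd
  intro l hl
  -- the "norm" of `l`
  have hTk : ∀ k : ℕ, (l * x) ^ k * (x ^ k)⁻¹ ∈ N := by
    intro k
    induction k with
    | zero => simp
    | succ k ih =>
      have : (l * x) ^ (k + 1) * (x ^ (k + 1))⁻¹ = l * (x * ((l * x) ^ k * (x ^ k)⁻¹) * x⁻¹) := by
        rw [pow_succ' (l * x), pow_succ' x]; group
      rw [this]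
      exact N.mul_mem hl (hxN _ ih)
  set T : G := (l * x) ^ s with hT
  have hTN : T ∈ N := by
    have := hTk s
    rwa [hxs, inv_one, mul_one] at this
  -- `x` commutes with `T`
  set a : G := T⁻¹ * l⁻¹ * T * l with ha
  have haA : a ∈ A := by
    have := h.comm T⁻¹ (N.inv_mem hTN) l⁻¹ (N.inv_mem hl)
    simpa [ha] using this
  have hcomm : (l * x) * T = T * (l * x) := by
    rw [hT, ← pow_succ', ← pow_succ]
  have hxT : x * T * x⁻¹ = T * a := by
    calc x * T * x⁻¹ = l⁻¹ * ((l * x) * T) * x⁻¹ := by group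
      _ = l⁻¹ * (T * (l * x)) * x⁻¹ := by rw [hcomm]
      _ = T * a := by rw [ha]; group
  have hxj : ∀ j : ℕ, x ^ j * T * (x ^ j)⁻¹ = T * a ^ j := by
    intro j
    induction j with
    | zero => simp
    | succ j ih =>
      have haj : x * a ^ j = a ^ j * x := hxA _ (A.pow_mem haA j)
      calc x ^ (j + 1) * T * (x ^ (j + 1))⁻¹ = x * (x ^ j * T * (x ^ j)⁻¹) * x⁻¹ := by
            rw [pow_succ' x]; group
        _ = x * (T * a ^ j) * x⁻¹ := by rw [ih]
        _ = (x * T * x⁻¹) * (x * a ^ j) * x⁻¹ := by group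
        _ = (T * a) * (a ^ j * x) * x⁻¹ := by rw [hxT, haj]
        _ = T * (a * a ^ j) := by group
        _ = T * a ^ (j + 1) := by rw [pow_succ' a]
  have has : a ^ s = 1 := by
    have := hxj s
    rw [hxs] at this
    simpa using this.symm
  have ha1 : a = 1 := hsA a haA has
  have hxT' : x * T = T * x := by
    rw [ha1, mul_one] at hxT
    calc x * T = (x * T * x⁻¹) * x := by group
      _ = T * x := by rw [hxT]
  have hdT : d * T = T * d := hCx d hd T hTN hdx hxT'
  -- the commutator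
  set c : G := d * l * d⁻¹ * l⁻¹ with hc
  have hcA : c ∈ A := h.comm d hd l hl
  have hcl : c * l = l * c := h.central c hcA l hl
  have hcx : x * c = c * x := hxA c hcA
  have hclx : Commute c (l * x) := by
    show c * (l * x) = (l * x) * c
    rw [← mul_assoc, hcl, mul_assoc, ← hcx, mul_assoc]
  have hconj : d * (l * x) * d⁻¹ = c * (l * x) := by
    have hxd : x * d⁻¹ = d⁻¹ * x := by
      calc x * d⁻¹ = d⁻¹ * (d * x) * d⁻¹ := by group
        _ = d⁻¹ * (x * d) * d⁻¹ := by rw [hdx]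
        _ = d⁻¹ * x := by group
    calc d * (l * x) * d⁻¹ = d * l * (x * d⁻¹) := by group
      _ = d * l * (d⁻¹ * x) := by rw [hxd]
      _ = c * (l * x) := by rw [hc]; group
  have hconjT : d * T * d⁻¹ = c ^ s * T := by
    rw [hT, ← conj_pow, hconj, hclx.mul_pow]
  have hcs : c ^ s = 1 := by
    have : d * T * d⁻¹ = T := by rw [hdT]; group
    rw [this] at hconjT
    exact (mul_eq_right.1 hconjT.symm)
  have hc1 : c = 1 := hsA c hcA hcs
  calc d * l = c * (l * d) := by rw [hc]; group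
    _ = l * d := by rw [hc1, one_mul]

end Cfsg.Agent.Lib.Helper59.HupGT3
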