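import Mathlib
import Cfsg.Agent.Lib.Helper53.Hup.Defs
import Cfsg.Agent.Lib.Helper59.HupGT1

/-!
# Piece GT5 of Huppert's theorem: `|G : A|` divides 24
-/

set_option autoImplicit false

namespace Cfsg.Agent.Lib.Helper59.HupGT5

open Cfsg.Agent.Lib.Helper53.Hup Cfsg.Agent.Lib.Helper59.HupGT1

theorem index_dvd_24 {G : Type*} [Group G] [Finite G] (A L : Subgroup G) [A.Normal] [L.Normal]
    (hA : IsCyclic A)
    (hAZ : A ≤ Subgroup.center G) (h : SympPair A L) (h4 : A.relIndex L = 4)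
    (hC : Subgroup.centralizer (L : Set G) ≤ A) : A.index ∣ 24 := by
  classical
  let Lb : Subgroup (G ⧸ A) := L.map (QuotientGroup.mk' A)
  have hLbn : Lb.Normal := Subgroup.Normal.map inferInstance _ (QuotientGroup.mk'_surjective A)
  have hLb4 : Nat.card Lb = 4 := by
    rw [← h4, ← Subgroup.relIndex_ker, QuotientGroup.ker_mk']
  let Y : Type _ := {y : G ⧸ A // y ∈ Lb ∧ y ≠ 1}
  let act : MulAction G Y :=
    { smul := fun g y => ⟨(g : G ⧸ A) * y.1 * (g : G ⧸ A)⁻¹, hLbn.conj_mem _ y.2.1 _, by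
        intro hy
        apply y.2.2
        have := congrArg (fun z => (g : G ⧸ A)⁻¹ * z * (g : G ⧸ A)) hy
        simpa [mul_assoc] using this⟩
      one_smul := by
        intro y
        apply Subtype.ext
        show ((1 : G) : G ⧸ A) * y.1 * ((1 : G) : G ⧸ A)⁻¹ = y.1
        simp
      mul_smul := by
        intro g g' y
        apply Subtype.ext
        show ((g * g' : G) : G ⧸ A) * y.1 * ((g * g' : G) : G ⧸ A)⁻¹
          = (g : G ⧸ A) * ((g' : G ⧸ A) * y.1 * (g' : G ⧸ A)⁻¹) * (g : G ⧸ A)⁻¹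
        rw [QuotientGroup.mk_mul]
        group }
  have hsmul : ∀ (g : G) (y : Y), (g • y).1 = (g : G ⧸ A) * y.1 * (g : G ⧸ A)⁻¹ := fun _ _ => rfl
  have hY3 : Nat.card Y = 3 := by
    have e : Y ≃ {z : Lb // z ≠ 1} :=
      { toFun := fun y => ⟨⟨y.1, y.2.1⟩, fun hy => y.2.2 (congrArg Subtype.val hy)⟩
        invFun := fun z => ⟨z.1.1, z.1.2, fun hz => z.2 (Subtype.ext hz)⟩
        left_inv := fun _ => rfl
        right_inv := fun _ => rfl }
    rw [Nat.card_congr e]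
    have : Fintype Lb := Fintype.ofFinite _
    rw [Nat.card_eq_fintype_card, Fintype.card_subtype_compl, Fintype.card_subtype_eq,
      ← Nat.card_eq_fintype_card, hLb4]
  let φ : G →* Equiv.Perm Y := MulAction.toPermHom G Y
  let G₁ : Subgroup G := φ.ker
  have hG₁idx : G₁.index ∣ 6 := by
    have h1 : G₁.index = Nat.card φ.range := Subgroup.index_ker φ
    have h2 : Nat.card φ.range ∣ Nat.card (Equiv.Perm Y) := Subgroup.card_subgroup_dvd_card _
    rw [Nat.card_perm, hY3] at h2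
    rw [h1]; exact h2
  have hG₁mem : ∀ g ∈ G₁, ∀ l ∈ L, g * l * g⁻¹ * l⁻¹ ∈ A := by
    intro g hg l hl
    by_cases hlA : l ∈ A
    · exact A.mul_mem (Subgroup.Normal.conj_mem inferInstance l hlA g) (A.inv_mem hlA)
    · have hy : ((l : G ⧸ A) ∈ Lb ∧ (l : G ⧸ A) ≠ 1) :=
        ⟨⟨l, hl, rfl⟩, fun h1 => hlA ((QuotientGroup.eq_one_iff l).1 h1)⟩
      have h1 : φ g ⟨(l : G ⧸ A), hy⟩ = ⟨(l : G ⧸ A), hy⟩ := by
        rw [MonoidHom.mem_ker.1 hg]; rfl
      have h2 : (g : G ⧸ A) * (l : G ⧸ A) * (g : G ⧸ A)⁻¹ = (l : G ⧸ A) := congrArg Subtype.val h1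
      have h3 : ((g * l * g⁻¹ * l⁻¹ : G) : G ⧸ A) = 1 := by
        rw [QuotientGroup.mk_mul, QuotientGroup.mk_mul, QuotientGroup.mk_mul, QuotientGroup.mk_inv,
          QuotientGroup.mk_inv, h2, mul_inv_cancel]
      exact (QuotientGroup.eq_one_iff _).1 h3
  have hLG₁ : L ≤ G₁ := by
    intro l' hl'
    rw [MonoidHom.mem_ker]
    ext ⟨_, ⟨l, hl, rfl⟩, hy⟩
    show ((l' : G ⧸ A) * (QuotientGroup.mk' A l) * (l' : G ⧸ A)⁻¹) = QuotientGroup.mk' A l
    have h1 : ((l' * l * l'⁻¹ * l⁻¹ : G) : G ⧸ A) = 1 :=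
      (QuotientGroup.eq_one_iff _).2 (h.comm l' hl' l hl)
    rw [QuotientGroup.mk_mul, QuotientGroup.mk_mul, QuotientGroup.mk_mul, QuotientGroup.mk_inv,
      QuotientGroup.mk_inv, mul_inv_eq_one] at h1
    exact h1
  have hcen : ∀ g : G, ∀ a ∈ A, g * a = a * g := fun g a ha =>
    (Subgroup.mem_center_iff.1 (hAZ ha) g)
  have hpb := pairing_bound A G₁ L hA hG₁mem (fun g _ a ha => hcen g a ha)
    (fun l _ a ha => hcen l a ha)
  have hne : ∀ H K : Subgroup G, H.relIndex K ≠ 0 := fun H K => by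
    have : (H.subgroupOf K).FiniteIndex := inferInstance
    exact this.index_ne_zero
  have hAcG : A ≤ Subgroup.centralizer (G₁ : Set G) := by
    intro a ha
    rw [Subgroup.mem_centralizer_iff]
    intro g _
    exact hcen g a ha
  have h5 : (Subgroup.centralizer (G₁ : Set G)).relIndex L ≤ 4 := by
    rw [← h4]; exact Subgroup.relIndex_le_of_le_left hAcG (hne _ _)
  have h6 : A.relIndex G₁ ≤ (Subgroup.centralizer (L : Set G)).relIndex G₁ :=
    Subgroup.relIndex_le_of_le_left hC (hne _ _)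
  have h7 : A.relIndex G₁ = 4 * L.relIndex G₁ := by
    rw [← h4, Subgroup.relIndex_mul_relIndex A L G₁ h.le hLG₁]
  have h8 : L.relIndex G₁ = 1 := by
    have := hne L G₁
    omega
  have h9 : A.index = 4 * G₁.index := by
    rw [← Subgroup.relIndex_mul_index (h.le.trans hLG₁), h7, h8]
  rw [h9]
  exact Nat.mul_dvd_mul_left 4 hG₁idx

end Cfsg.Agent.Lib.Helper59.HupGT5
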