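import Mathlib

/-!
# Brauer-Feit farm, piece BF-A2
-/

set_option autoImplicit false

namespace Cfsg.Agent.Lib.Helper59.BFA2

open Matrix

theorem prod_ite_one {ι : Type*} [Fintype ι] [DecidableEq ι] (a : ι) (c : ℤ) :
    ∏ i, (if i = a then (1 : ℤ) else c) = c ^ (Fintype.card ι - 1) := by
  rw [← Finset.mul_prod_erase Finset.univ _ (Finset.mem_univ a), if_pos rfl, one_mul]
  rw [Finset.prod_congr rfl (g := fun _ => c)]
  · rw [Finset.prod_const, Finset.card_erase_of_mem (Finset.mem_univ a), Finset.card_univ]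
  · intro i hi
    rw [if_neg (Finset.ne_of_mem_erase hi)]

theorem pow_dvd_det_of_minors {ι : Type*} [Fintype ι] [DecidableEq ι] (p : ℕ) (hp : p.Prime)
    (Θ : Matrix ι ι ℤ) (h : ∀ i j k l, (p : ℤ) ∣ Θ i j * Θ k l - Θ i l * Θ k j) :
    (p : ℤ) ^ (Fintype.card ι - 1) ∣ Θ.det := by
  by_cases hall : ∀ i j, (p : ℤ) ∣ Θ i j
  · have hΘ : Θ = (p : ℤ) • (Matrix.of fun i j => Θ i j / p) := by
      ext i j
      simp only [Matrix.smul_apply, Matrix.of_apply, smul_eq_mul]
      exact (Int.mul_ediv_cancel' (hall i j)).symm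
    rw [hΘ, Matrix.det_smul]
    exact Dvd.dvd.mul_right (pow_dvd_pow _ (Nat.sub_le _ _)) _
  · push Not at hall
    obtain ⟨a, b, hab⟩ := hall
    set u : ℤ := Θ a b with hu
    let B' : Matrix ι ι ℤ := Matrix.diagonal (fun i => if i = a then (1 : ℤ) else u) * Θ
    have hB' : ∀ i j, B' i j = (if i = a then (1 : ℤ) else u) * Θ i j := by
      intro i j
      simp [B', Matrix.diagonal_mul]
    have hdetB' : B'.det = u ^ (Fintype.card ι - 1) * Θ.det := by
      simp only [B', Matrix.det_mul, Matrix.det_diagonal, prod_ite_one]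
    let c : ι → ℤ := fun i => if i = a then 0 else - Θ i b
    let Y' : Matrix ι ι ℤ := Matrix.of fun i j => B' i j + c i * B' a j
    have hdetY' : Y'.det = B'.det :=
      Matrix.det_eq_of_forall_row_eq_smul_add_const c a (by simp [c]) (fun i j => rfl)
    have hdiv : ∀ i j, i ≠ a → (p : ℤ) ∣ Y' i j := by
      intro i j hi
      have : Y' i j = Θ a b * Θ i j - Θ a j * Θ i b := by
        simp only [Y', Matrix.of_apply, hB', c, if_neg hi, if_true, eq_self_iff_true, hu]
        ring
      rw [this]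
      exact h a b i j
    let Y'' : Matrix ι ι ℤ := Matrix.of fun i j => if i = a then Y' i j else Y' i j / p
    have hY' : Y' = Matrix.diagonal (fun i => if i = a then (1 : ℤ) else (p : ℤ)) * Y'' := by
      ext i j
      rw [Matrix.diagonal_mul]
      by_cases hi : i = a
      · simp [Y'', hi]
      · simp only [Y'', Matrix.of_apply, if_neg hi]
        exact (Int.mul_ediv_cancel' (hdiv i j hi)).symm
    have hdetY'' : Y'.det = (p : ℤ) ^ (Fintype.card ι - 1) * Y''.det := by
      rw [hY', Matrix.det_mul, Matrix.det_diagonal, prod_ite_one]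
    have hcop : IsCoprime ((p : ℤ) ^ (Fintype.card ι - 1)) (u ^ (Fintype.card ι - 1)) :=
      IsCoprime.pow (((Nat.prime_iff_prime_int.1 hp).coprime_iff_not_dvd).2 hab)
    apply hcop.dvd_of_dvd_mul_left
    rw [← hdetB', ← hdetY', hdetY'']
    exact Dvd.intro _ rfl

end Cfsg.Agent.Lib.Helper59.BFA2
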