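import Mathlib

/-!
# Brauer-Feit farm, piece BF-A3
-/

set_option autoImplicit false

namespace Cfsg.Agent.Lib.Helper59.BFA3

open Matrix

theorem exists_ker_basis {X : Type*} [Fintype X] [DecidableEq X] (M : Matrix X X ℤ) :
    ∃ (n : ℕ) (A T : Matrix X (Fin n) ℤ), M * A = 0 ∧ Tᵀ * A = 1 ∧
      ∀ c : X → ℤ, M.mulVec c = 0 → c = A.mulVec (Tᵀ.mulVec c) := by
  classical
  let φ : (X → ℤ) →ₗ[ℤ] (X → ℤ) := M.mulVecLin
  let K : Submodule ℤ (X → ℤ) := LinearMap.ker φ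
  have hfree : Module.Free ℤ (LinearMap.range φ) := inferInstance
  obtain ⟨s, hs⟩ := Module.projective_lifting_property φ.rangeRestrict LinearMap.id
    φ.surjective_rangeRestrict
  have hs' : ∀ y : LinearMap.range φ, φ (s y) = y := by
    intro y
    have := congrArg Subtype.val (LinearMap.congr_fun hs y)
    simpa using this
  let ρ : (X → ℤ) →ₗ[ℤ] K :=
    LinearMap.codRestrict K (LinearMap.id - s ∘ₗ φ.rangeRestrict) (by
      intro c
      rw [LinearMap.mem_ker]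
      simp only [LinearMap.sub_apply, LinearMap.id_apply, LinearMap.comp_apply, map_sub]
      rw [hs']
      simp)
  have hρ : ∀ k : K, ρ k = k := by
    intro k
    apply Subtype.ext
    have hk : φ (k : X → ℤ) = 0 := k.2
    have h0 : φ.rangeRestrict (k : X → ℤ) = 0 := Subtype.ext hk
    simp [ρ, h0]
  let e := Module.finBasis ℤ K
  let n := Module.finrank ℤ K
  let ℓ : Fin n → (X → ℤ) →ₗ[ℤ] ℤ := fun j =>
    (Finsupp.lapply j) ∘ₗ (e.repr : K →ₗ[ℤ] (Fin n →₀ ℤ)) ∘ₗ ρ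
  have hℓ : ∀ j c, ℓ j c = e.repr (ρ c) j := fun _ _ => rfl
  let A : Matrix X (Fin n) ℤ := Matrix.of fun χ j => (e j : X → ℤ) χ
  let T : Matrix X (Fin n) ℤ := Matrix.of fun χ j => ℓ j (fun χ' => if χ = χ' then 1 else 0)
  have hT : ∀ c : X → ℤ, ∀ j, (Tᵀ.mulVec c) j = e.repr (ρ c) j := by
    intro c j
    rw [← hℓ, LinearMap.pi_apply_eq_sum_univ (ℓ j) c]
    simp only [Matrix.mulVec, dotProduct, Matrix.transpose_apply, T, Matrix.of_apply, smul_eq_mul]
    apply Finset.sum_congr rfl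
    intro χ _
    ring
  have hA : ∀ d : Fin n → ℤ, A.mulVec d = ((∑ j, d j • e j : K) : X → ℤ) := by
    intro d
    ext χ
    simp only [Matrix.mulVec, dotProduct, A, Matrix.of_apply]
    rw [Submodule.coe_sum, Finset.sum_apply]
    apply Finset.sum_congr rfl
    intro j _
    simp [mul_comm]
  refine ⟨n, A, T, ?_, ?_, ?_⟩
  · ext i j
    have h1 : φ (e j : X → ℤ) = 0 := (e j).2
    have h2 : (M.mulVec (e j : X → ℤ)) i = 0 := congrFun h1 i
    rw [Matrix.mul_apply]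
    exact h2
  · ext j k
    have h1 := hT (e k : X → ℤ) j
    rw [hρ, e.repr_self, Finsupp.single_apply] at h1
    rw [Matrix.mul_apply, Matrix.one_apply]
    have h2 : (Tᵀ.mulVec (e k : X → ℤ)) j = ∑ χ, Tᵀ j χ * A χ k := rfl
    rw [← h2, h1]
    by_cases hjk : j = k
    · simp [hjk]
    · rw [if_neg hjk, if_neg (Ne.symm hjk)]
  · intro c hc
    have hcK : c ∈ K := hc
    rw [hA]
    have h1 : ∀ j, (Tᵀ.mulVec c) j = e.repr ⟨c, hcK⟩ j := by
      intro j
      rw [hT, ← hρ ⟨c, hcK⟩]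
    simp only [h1]
    rw [e.sum_repr]

end Cfsg.Agent.Lib.Helper59.BFA3
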