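import Mathlib

/-!
# Brauer-Feit farm, piece BF-D1
-/

set_option autoImplicit false

namespace Cfsg.Agent.Lib.Helper59.BFD1

theorem sum_form_ge {Λ R : Type*} [AddCommGroup Λ] [Fintype R] (B : LinearMap.BilinForm ℤ Λ)
    (hsym : ∀ x y, B x y = B y x) (hpos : ∀ x, 0 ≤ B x x) (hrad : ∀ v, B v v = 0 → ∀ w, B v w = 0)
    (L : ℤ) (hL : 0 ≤ L) (hmin : ∀ v, B v v = 0 ∨ L ≤ B v v) (x : R → Λ)
    (hne : (Fintype.card R : ℤ) * ∑ μ, B (x μ) (x μ) - B (∑ μ, x μ) (∑ μ, x μ) ≠ 0) :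
    ((Fintype.card R : ℤ) - 1) * L ≤
      (Fintype.card R : ℤ) * ∑ μ, B (x μ) (x μ) - B (∑ μ, x μ) (∑ μ, x μ) := by
  classical
  set D : R → R → ℤ := fun μ ν => B (x μ - x ν) (x μ - x ν) with hD
  have hDexp : ∀ μ ν, D μ ν = B (x μ) (x μ) - 2 * B (x μ) (x ν) + B (x ν) (x ν) := by
    intro μ ν
    simp only [hD, map_sub, LinearMap.sub_apply]
    rw [hsym (x ν) (x μ)]
    ring
  have hDsymm : ∀ μ ν, D μ ν = D ν μ := by
    intro μ ν
    rw [hDexp, hDexp, hsym (x ν) (x μ)]; ring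
  have hDpos : ∀ μ ν, 0 ≤ D μ ν := fun μ ν => hpos _
  have hBsum : B (∑ μ, x μ) (∑ μ, x μ) = ∑ μ, ∑ ν, B (x μ) (x ν) := by
    rw [map_sum B, LinearMap.sum_apply]
    apply Finset.sum_congr rfl
    intro μ _
    rw [map_sum]
  set S : ℤ := ∑ μ, B (x μ) (x μ) with hS
  have htot : ∑ ν, ∑ μ, D μ ν = 2 * ((Fintype.card R : ℤ) * S - B (∑ μ, x μ) (∑ μ, x μ)) := by
    rw [Finset.sum_comm, hBsum]
    simp only [hDexp, Finset.sum_add_distrib, Finset.sum_sub_distrib, Finset.sum_const,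
      Finset.card_univ, ← Finset.mul_sum, nsmul_eq_mul]
    ring
  -- a nonzero term
  obtain ⟨μ0, ν0, h0⟩ : ∃ μ0 ν0, D μ0 ν0 ≠ 0 := by
    by_contra hcon
    push Not at hcon
    apply hne
    have : ∑ ν, ∑ μ, D μ ν = 0 := Finset.sum_eq_zero (fun ν _ => Finset.sum_eq_zero (fun μ _ => hcon μ ν))
    rw [htot] at this
    omega
  have hμν : μ0 ≠ ν0 := by
    rintro rfl
    apply h0
    simp [hD]
  have htrans : ∀ κ, D κ μ0 = 0 → D κ ν0 = 0 → False := by
    intro κ h1 h2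
    apply h0
    have e : x μ0 - x ν0 = (x κ - x ν0) - (x κ - x μ0) := by abel
    show B (x μ0 - x ν0) (x μ0 - x ν0) = 0
    rw [e]
    simp only [map_sub (B _), map_sub B, LinearMap.sub_apply]
    have a1 := hrad _ h1
    have a2 := hrad _ h2
    simp only [map_sub B, LinearMap.sub_apply] at a1 a2
    have b1 := a1 (x κ); have b2 := a1 (x μ0); have b3 := a1 (x ν0)
    have c1 := a2 (x κ); have c2 := a2 (x μ0); have c3 := a2 (x ν0)
    linarith
  have hf : ∀ κ, L ≤ D κ μ0 + D κ ν0 := by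
    intro κ
    by_cases h1 : D κ μ0 = 0
    · have h2 : D κ ν0 ≠ 0 := fun h2 => htrans κ h1 h2
      rcases hmin (x κ - x ν0) with h | h
      · exact absurd h h2
      · have : L ≤ D κ ν0 := h
        rw [h1]; linarith
    · rcases hmin (x κ - x μ0) with h | h
      · exact absurd h h1
      · have : L ≤ D κ μ0 := h
        have := hDpos κ ν0
        linarith
  set c : R → ℤ := fun ν => ∑ μ, D μ ν with hc
  have hc1 : (Fintype.card R : ℤ) * L ≤ c μ0 + c ν0 := by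
    have : c μ0 + c ν0 = ∑ μ, (D μ μ0 + D μ ν0) := by
      rw [hc, Finset.sum_add_distrib]
    rw [this]
    have := Finset.card_nsmul_le_sum Finset.univ (fun μ => D μ μ0 + D μ ν0) L (fun μ _ => hf μ)
    simpa [Finset.card_univ] using this
  have hc2 : ∀ ν, L ≤ c ν := by
    intro ν
    have h1 : ∑ μ ∈ ({μ0, ν0} : Finset R), D μ ν ≤ c ν :=
      Finset.sum_le_sum_of_subset_of_nonneg (Finset.subset_univ _) (fun μ _ _ => hDpos μ ν)
    rw [Finset.sum_pair hμν, hDsymm μ0 ν, hDsymm ν0 ν] at h1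
    exact (hf ν).trans h1
  have hsplit : ∑ ν, c ν = c μ0 + (c ν0 + ∑ ν ∈ (Finset.univ.erase μ0).erase ν0, c ν) := by
    rw [← Finset.add_sum_erase Finset.univ c (Finset.mem_univ μ0),
      ← Finset.add_sum_erase (Finset.univ.erase μ0) c
        (Finset.mem_erase.2 ⟨hμν.symm, Finset.mem_univ ν0⟩)]
  have hcard : (((Finset.univ.erase μ0).erase ν0).card : ℤ) = (Fintype.card R : ℤ) - 2 := by
    rw [Finset.card_erase_of_mem (Finset.mem_erase.2 ⟨hμν.symm, Finset.mem_univ ν0⟩),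
      Finset.card_erase_of_mem (Finset.mem_univ μ0), Finset.card_univ]
    have : 2 ≤ Fintype.card R := by
      have := Finset.card_le_univ ({μ0, ν0} : Finset R)
      rwa [Finset.card_pair hμν] at this
    omega
  have hc3 : ((Fintype.card R : ℤ) - 2) * L ≤ ∑ ν ∈ (Finset.univ.erase μ0).erase ν0, c ν := by
    have := Finset.card_nsmul_le_sum ((Finset.univ.erase μ0).erase ν0) c L (fun ν _ => hc2 ν)
    rw [nsmul_eq_mul, hcard] at this
    exact this
  have hfin : ∑ ν, c ν = 2 * ((Fintype.card R : ℤ) * S - B (∑ μ, x μ) (∑ μ, x μ)) := htot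
  rw [hsplit] at hfin
  nlinarith

end Cfsg.Agent.Lib.Helper59.BFD1
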