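import Mathlib

set_option autoImplicit false

namespace Cfsg.Agent.Lib.Helper59

open Polynomial

variable {p : ℕ} [Fact p.Prime]

theorem sum_pow_card_sub_one_zmod : ∑ y : ZMod p, y ^ (p - 1) = -1 := by
  classical
  have hp : p.Prime := Fact.out
  have h1 : ∀ y : ZMod p, y ^ (p - 1) = if y = 0 then 0 else 1 := by
    intro y
    split_ifs with h
    · rw [h, zero_pow]
      have := hp.two_le
      omega
    · exact ZMod.pow_card_sub_one_eq_one h
  simp_rw [h1]
  rw [Finset.sum_ite, Finset.sum_const_zero, zero_add, Finset.sum_const, nsmul_eq_mul, mul_one]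
  have : (Finset.univ.filter (fun y : ZMod p => ¬ y = 0)).card = p - 1 := by
    rw [Finset.filter_not, Finset.card_sdiff_of_subset (Finset.filter_subset _ _), Finset.card_univ, ZMod.card,
      Finset.filter_eq' , if_pos (Finset.mem_univ _), Finset.card_singleton]
  rw [this, Nat.cast_sub hp.one_le]
  simp

theorem sum_eval_zmod (Q : (ZMod p)[X]) (hQ : Q.natDegree ≤ p - 1) :
    ∑ y : ZMod p, Q.eval y = - Q.coeff (p - 1) := by
  have hp : p.Prime := Fact.out
  have hlt : Q.natDegree < p := by have := hp.two_le; omega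
  simp_rw [eval_eq_sum_range' hlt]
  rw [Finset.sum_comm]
  simp_rw [← Finset.mul_sum]
  have hpp : p = (p - 1) + 1 := by have := hp.two_le; omega
  have hrange : Finset.range p = Finset.range ((p - 1) + 1) := congrArg Finset.range hpp
  rw [hrange, Finset.sum_range_succ, sum_pow_card_sub_one_zmod]
  rw [Finset.sum_eq_zero]
  · ring
  · intro e he
    rw [FiniteField.sum_pow_lt_card_sub_one (ZMod p) e (by rw [ZMod.card]; exact Finset.mem_range.mp he),
      mul_zero]

theorem arith_exists_i (p m n : ℕ) (hm : 1 ≤ m) (h2m : 2 * m ≤ p - 1) (hn : 2 ≤ n) (hnp : n ≤ p - 1) :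
    ∃ i, 1 ≤ i ∧ i ≤ m ∧ m < n * i ∧ n * i ≤ p - 1 := by
  refine ⟨m / n + 1, Nat.le_add_left 1 _, ?_, ?_, ?_⟩
  · rcases Nat.lt_or_ge m n with h | h
    · rw [Nat.div_eq_of_lt h]; omega
    · have h1 : m / n ≤ m / 2 := Nat.div_le_div_left hn (by norm_num)
      omega
  · exact Nat.lt_mul_div_succ m (by omega)
  · rcases Nat.lt_or_ge m n with h | h
    · rw [Nat.div_eq_of_lt h]; omega
    · have h1 : n * (m / n) ≤ m := Nat.mul_div_le m n
      rw [mul_add, mul_one]; omega

/-- Carlitz–McConnel theorem over a prime field. -/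
theorem carlitz_prime (m : ℕ) (hm : 1 ≤ m) (h2m : 2 * m ≤ p - 1) (f : ZMod p → ZMod p)
    (hf : Function.Surjective f) (h : ∀ x y, (f x - f y) ^ m = (x - y) ^ m) :
    ∃ c d : ZMod p, ∀ x, f x = c * x + d := by
  classical
  have hp : p.Prime := Fact.out
  have hp2 := hp.two_le
  -- Step 1
  have step1 : ∀ j i : ℕ, j + m < p - 1 → i ≤ m → ∑ y : ZMod p, y ^ j * (f y) ^ i = 0 := by
    intro j i hj hi
    set R : (ZMod p)[X] := ∑ y : ZMod p, C (y ^ j) * (X + C (- f y)) ^ m with hR
    have hRdeg : R.natDegree ≤ m := by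
      apply natDegree_sum_le_of_forall_le
      intro y _
      refine (natDegree_C_mul_le _ _).trans ?_
      refine (natDegree_pow_le).trans ?_
      have : (X + C (- f y)).natDegree ≤ 1 := by
        rw [natDegree_X_add_C]
      calc m * (X + C (- f y)).natDegree ≤ m * 1 := Nat.mul_le_mul_left _ this
        _ = m := mul_one m
    have hReval : ∀ t, R.eval t = 0 := by
      intro t
      obtain ⟨x, rfl⟩ := hf t
      rw [hR, eval_finsetSum]
      have e1 : ∀ y : ZMod p, eval (f x) (C (y ^ j) * (X + C (- f y)) ^ m) =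
          eval y (X ^ j * (C x - X) ^ m) := by
        intro y
        simp only [eval_mul, eval_C, eval_pow, eval_add, eval_X, eval_sub]
        rw [← sub_eq_add_neg, h x y]
      simp_rw [e1]
      have hdeg : (X ^ j * (C x - X) ^ m : (ZMod p)[X]).natDegree ≤ j + m := by
        refine natDegree_mul_le.trans ?_
        apply Nat.add_le_add
        · exact natDegree_X_pow_le j
        · refine (natDegree_pow_le).trans ?_
          have : (C x - X : (ZMod p)[X]).natDegree ≤ 1 := by
            refine (natDegree_sub_le _ _).trans ?_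
            simp
          calc m * (C x - X : (ZMod p)[X]).natDegree ≤ m * 1 := Nat.mul_le_mul_left _ this
            _ = m := mul_one m
      rw [sum_eval_zmod _ (by omega), coeff_eq_zero_of_natDegree_lt (by omega), neg_zero]
    have hR0 : R = 0 := by
      apply eq_zero_of_natDegree_lt_card_of_eval_eq_zero R Function.injective_id hReval
      rw [ZMod.card]; omega
    have hcoeff : R.coeff (m - i) = 0 := by rw [hR0, coeff_zero]
    rw [hR, finsetSum_coeff] at hcoeff
    simp_rw [coeff_C_mul, coeff_X_add_C_pow] at hcoeff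
    have hmi : m - (m - i) = i := by omega
    rw [hmi] at hcoeff
    have e2 : ∀ y : ZMod p, y ^ j * ((- f y) ^ i * ((m.choose (m - i) : ℕ) : ZMod p)) =
        ((-1) ^ i * ((m.choose (m - i) : ℕ) : ZMod p)) * (y ^ j * (f y) ^ i) := by
      intro y
      rw [neg_pow]; ring
    simp_rw [e2] at hcoeff
    rw [← Finset.mul_sum] at hcoeff
    have hne : ((-1 : ZMod p) ^ i * ((m.choose (m - i) : ℕ) : ZMod p)) ≠ 0 := by
      apply mul_ne_zero
      · exact pow_ne_zero _ (neg_ne_zero.mpr one_ne_zero)
      · intro h0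
        rw [ZMod.natCast_eq_zero_iff] at h0
        have h1 : p ≤ m := by
          rw [← hp.dvd_factorial, ← Nat.choose_mul_factorial_mul_factorial (show m - i ≤ m by omega)]
          exact Dvd.dvd.mul_right (Dvd.dvd.mul_right h0 _) _
        omega
    exact (mul_eq_zero.mp hcoeff).resolve_left hne
  -- Step 2 : interpolation
  set P : (ZMod p)[X] := Lagrange.interpolate Finset.univ id f with hP
  have hPeval : ∀ y, P.eval y = f y := by
    intro y
    exact Lagrange.eval_interpolate_at_node f (Function.injective_id.injOn) (Finset.mem_univ y)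
  have hPdeg : P.degree < p := by
    have := Lagrange.degree_interpolate_lt (s := (Finset.univ : Finset (ZMod p))) (v := id) f
      (Function.injective_id.injOn)
    rwa [Finset.card_univ, ZMod.card] at this
  by_cases hn : P.natDegree ≤ 1
  · refine ⟨P.coeff 1, P.coeff 0, fun x => ?_⟩
    rw [← hPeval x]
    conv_lhs => rw [eq_X_add_C_of_natDegree_le_one hn]
    simp
  · exfalso
    have hP0 : P ≠ 0 := by
      intro h0
      rw [h0] at hn
      simp at hn
    have hnp : P.natDegree ≤ p - 1 := by
      have : P.natDegree < p := (natDegree_lt_iff_degree_lt hP0).mpr hPdeg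
      omega
    obtain ⟨i, hi1, him, hmi, hip⟩ := arith_exists_i p m P.natDegree hm h2m (by omega) hnp
    set j := p - 1 - P.natDegree * i with hj
    have hsum := step1 j i (by omega) him
    have hQdeg : (X ^ j * P ^ i).natDegree = p - 1 := by
      rw [natDegree_mul (pow_ne_zero _ X_ne_zero) (pow_ne_zero _ hP0), natDegree_X_pow,
        natDegree_pow]
      rw [mul_comm i]
      omega
    have hQ := sum_eval_zmod (X ^ j * P ^ i) hQdeg.le
    have e3 : ∀ y : ZMod p, eval y (X ^ j * P ^ i) = y ^ j * (f y) ^ i := by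
      intro y
      simp only [eval_mul, eval_pow, eval_X, hPeval]
    simp_rw [e3] at hQ
    rw [hsum] at hQ
    have hlc : (X ^ j * P ^ i).coeff (p - 1) = P.leadingCoeff ^ i := by
      rw [← hQdeg, coeff_natDegree, leadingCoeff_mul, leadingCoeff_pow, leadingCoeff_pow,
        leadingCoeff_X, one_pow, one_mul]
    rw [hlc] at hQ
    have : P.leadingCoeff ^ i = 0 := by
      rw [eq_comm, neg_eq_zero] at hQ
      exact hQ
    exact (pow_ne_zero i (leadingCoeff_ne_zero.mpr hP0)) this

end Cfsg.Agent.Lib.Helper59
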