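import Mathlib

/-!
# Conjugacy class sizes and Sylow subgroups (helper59)

`notDvdSet p` = elements whose class size is prime to `p` = union of the centralizers of the Sylow
`p`-subgroups.  Counting gives `|notDvdSet| * |N(P) : C(P)| ≤ |G|`, hence `2 |notDvdSet| ≤ |G|`
unless `N(P) ≤ C(P)` (Burnside: normal `p`-complement).
-/

set_option autoImplicit false

namespace Cfsg.Agent.Lib.Helper59

open scoped Pointwise

variable {G : Type*} [Group G]

/-- An element whose class size is prime to `p` centralizes a Sylow `p`-subgroup. -/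
theorem exists_sylow_centralizer_of_not_dvd [Finite G] (p : ℕ) [Fact p.Prime] (y : G)
    (h : ¬ p ∣ (Subgroup.centralizer ({y} : Set G)).index) :
    ∃ P : Sylow p G, y ∈ Subgroup.centralizer ((P : Subgroup G) : Set G) := by
  obtain ⟨P⟩ : Nonempty (Sylow p G) := inferInstance
  obtain ⟨q, hq⟩ := P.2.nonempty_fixed_point_of_prime_not_dvd_card
    (G ⧸ Subgroup.centralizer ({y} : Set G)) h
  induction q using QuotientGroup.induction_on with
  | H g =>
    refine ⟨g⁻¹ • P, ?_⟩
    rw [Subgroup.mem_centralizer_iff]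
    intro x hx
    have hx' : x ∈ ((g⁻¹ • P : Sylow p G) : Subgroup G) := hx
    rw [Sylow.coe_subgroup_smul, Subgroup.mem_pointwise_smul_iff_inv_smul_mem] at hx'
    have hx'' : g * x * g⁻¹ ∈ (P : Subgroup G) := by
      simpa [MulAut.smul_def, MulAut.conj_apply] using hx'
    have h1 := hq ⟨_, hx''⟩
    have h2 : ((g * x * g⁻¹ * g : G) : G ⧸ Subgroup.centralizer ({y} : Set G)) = (g : G ⧸ _) := h1
    rw [QuotientGroup.eq] at h2
    have h3 : x⁻¹ ∈ Subgroup.centralizer ({y} : Set G) := by
      have : (g * x * g⁻¹ * g)⁻¹ * g = x⁻¹ := by group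
      rwa [this] at h2
    have h4 := (Subgroup.inv_mem_iff _).mp h3
    rw [Subgroup.mem_centralizer_singleton_iff] at h4
    exact h4

/-- Conjugate Sylow subgroups have centralizers of the same order. -/
theorem card_centralizer_sylow_smul (p : ℕ) (P : Sylow p G) (g : G) :
    Nat.card (Subgroup.centralizer (((g • P : Sylow p G) : Subgroup G) : Set G)) =
      Nat.card (Subgroup.centralizer ((P : Subgroup G) : Set G)) := by
  symm
  refine Nat.card_congr (Equiv.subtypeEquiv (MulAut.conj g).toEquiv ?_)
  intro c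
  show c ∈ Subgroup.centralizer ((P : Subgroup G) : Set G) ↔
    g * c * g⁻¹ ∈ Subgroup.centralizer (((g • P : Sylow p G) : Subgroup G) : Set G)
  rw [Subgroup.mem_centralizer_iff, Subgroup.mem_centralizer_iff]
  constructor
  · intro hc x hx
    have hx' : x ∈ ((g • P : Sylow p G) : Subgroup G) := hx
    rw [Sylow.coe_subgroup_smul, Subgroup.mem_pointwise_smul_iff_inv_smul_mem] at hx'
    simp only [MulAut.smul_def, MulAut.conj_inv_apply] at hx'
    have := hc _ hx'
    calc x * (g * c * g⁻¹) = g * ((g⁻¹ * x * g) * c) * g⁻¹ := by group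
      _ = g * (c * (g⁻¹ * x * g)) * g⁻¹ := by rw [this]
      _ = g * c * g⁻¹ * x := by group
  · intro hc x hx
    have hx' : g * x * g⁻¹ ∈ ((g • P : Sylow p G) : Subgroup G) := by
      rw [Sylow.coe_subgroup_smul, Subgroup.mem_pointwise_smul_iff_inv_smul_mem]
      simp only [MulAut.smul_def, MulAut.conj_inv_apply]
      have : g⁻¹ * (g * x * g⁻¹) * g = x := by group
      rw [this]; exact hx
    have := hc _ hx'
    have h2 : g * (x * c) * g⁻¹ = g * (c * x) * g⁻¹ := by
      calc g * (x * c) * g⁻¹ = (g * x * g⁻¹) * (g * c * g⁻¹) := by group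
        _ = (g * c * g⁻¹) * (g * x * g⁻¹) := this
        _ = g * (c * x) * g⁻¹ := by group
    exact mul_left_cancel (mul_right_cancel h2)

/-- The number of elements whose class size is prime to `p` is at most
`n_p * |C_G(P)|`. -/
theorem card_not_dvd_le [Finite G] (p : ℕ) [Fact p.Prime] (P : Sylow p G) :
    Nat.card {y : G // ¬ p ∣ (Subgroup.centralizer ({y} : Set G)).index} ≤
      Nat.card (Sylow p G) * Nat.card (Subgroup.centralizer ((P : Subgroup G) : Set G)) := by
  classical
  have : Fintype G := Fintype.ofFinite G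
  have : Fintype (Sylow p G) := Fintype.ofFinite _
  have hsub : (Finset.univ.filter fun y : G => ¬ p ∣ (Subgroup.centralizer ({y} : Set G)).index) ⊆
      (Finset.univ : Finset (Sylow p G)).biUnion fun Q =>
        Finset.univ.filter fun y : G => y ∈ Subgroup.centralizer ((Q : Subgroup G) : Set G) := by
    intro y hy
    rw [Finset.mem_filter] at hy
    obtain ⟨Q, hQ⟩ := exists_sylow_centralizer_of_not_dvd p y hy.2
    rw [Finset.mem_biUnion]
    exact ⟨Q, Finset.mem_univ _, by rw [Finset.mem_filter]; exact ⟨Finset.mem_univ _, hQ⟩⟩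
  have h1 := (Finset.card_le_card hsub).trans Finset.card_biUnion_le
  have h2 : ∀ Q : Sylow p G,
      (Finset.univ.filter fun y : G => y ∈ Subgroup.centralizer ((Q : Subgroup G) : Set G)).card =
        Nat.card (Subgroup.centralizer ((P : Subgroup G) : Set G)) := by
    intro Q
    obtain ⟨g, rfl⟩ := MulAction.exists_smul_eq G P Q
    rw [← card_centralizer_sylow_smul p P g, Nat.card_eq_fintype_card, Fintype.card_subtype]
  rw [Finset.sum_congr rfl (fun Q _ => h2 Q), Finset.sum_const, Finset.card_univ, smul_eq_mul,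
    ← Nat.card_eq_fintype_card] at h1
  rw [Nat.card_eq_fintype_card, Fintype.card_subtype]
  exact h1

/-- If `N_G(P) ≰ C_G(P)`, at most half of the elements have class size prime to `p`. -/
theorem two_mul_card_not_dvd_le [Finite G] (p : ℕ) [Fact p.Prime] (P : Sylow p G)
    (hP : ¬ Subgroup.normalizer ((P : Subgroup G) : Set G) ≤
      Subgroup.centralizer ((P : Subgroup G) : Set G)) :
    2 * Nat.card {y : G // ¬ p ∣ (Subgroup.centralizer ({y} : Set G)).index} ≤ Nat.card G := by
  have h1 := card_not_dvd_le p P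
  set C := Subgroup.centralizer ((P : Subgroup G) : Set G) with hC
  set N := Subgroup.normalizer ((P : Subgroup G) : Set G) with hN
  have hCN : C ≤ N := Subgroup.centralizer_le_normalizer _
  have h2 : 2 * Nat.card C ≤ Nat.card N := by
    obtain ⟨k, hk⟩ := Subgroup.card_dvd_of_le hCN
    have hNpos : 0 < Nat.card N := Nat.card_pos
    have hk0 : k ≠ 0 := by
      rintro rfl
      rw [mul_zero] at hk
      omega
    have hk1 : k ≠ 1 := by
      rintro rfl
      rw [mul_one] at hk
      exact hP (Subgroup.eq_of_le_of_card_ge hCN hk.le).ge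
    have : 2 ≤ k := by omega
    calc 2 * Nat.card C ≤ k * Nat.card C := Nat.mul_le_mul_right _ this
      _ = Nat.card N := by rw [hk, mul_comm]
  have h3 : Nat.card (Sylow p G) * Nat.card N = Nat.card G := by
    rw [P.card_eq_index_normalizer, mul_comm]
    exact Subgroup.card_mul_index _
  calc 2 * Nat.card {y : G // ¬ p ∣ (Subgroup.centralizer ({y} : Set G)).index}
      ≤ 2 * (Nat.card (Sylow p G) * Nat.card C) := Nat.mul_le_mul_left _ h1
    _ = Nat.card (Sylow p G) * (2 * Nat.card C) := by ring
    _ ≤ Nat.card (Sylow p G) * Nat.card N := Nat.mul_le_mul_left _ h2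
    _ = Nat.card G := h3

end Cfsg.Agent.Lib.Helper59
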