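import Cfsg.Agent.Lib.Helper59.Derangement

set_option autoImplicit false

namespace Cfsg.Agent.Lib.Helper59

open MulAction

theorem index_dvd_card_of_stabilizer_le {H X : Type*} [Group H] [MulAction H X] [Finite X]
    (K : Subgroup H) (h : ∀ x : X, stabilizer H x ≤ K) : K.index ∣ Nat.card X := by
  classical
  have := Fintype.ofFinite (orbitRel.Quotient H X)
  have hfin : ∀ (a : Quotient (orbitRel H X)), Finite (H ⧸ stabilizer H a.out) := by
    intro a
    exact Finite.of_equiv _ (orbitEquivQuotientStabilizer H a.out)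
  rw [Nat.card_congr (selfEquivSigmaOrbitsQuotientStabilizer H X), Nat.card_sigma]
  apply Finset.dvd_sum
  intro ω _
  exact Subgroup.index_dvd_of_le (h _)

/-- If `D` is transitive then `[G_α : D ∩ G_α] = [G : D]`. -/
theorem relIndex_stabilizer_of_transitive {G Ω : Type*} [Group G] [MulAction G Ω] [Finite Ω]
    (htrans : IsPretransitive G Ω) (D : Subgroup G) (hD : IsPretransitive D Ω) (α : Ω) :
    (D.subgroupOf (stabilizer G α)).index = D.index := by
  have hne : Nonempty Ω := ⟨α⟩
  have hn : 0 < Nat.card Ω := Nat.card_pos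
  have h1 : (stabilizer G α).index = Nat.card Ω := index_stabilizer_of_transitive G α
  have h2 : ((stabilizer G α).subgroupOf D).index = Nat.card Ω := by
    have : (stabilizer G α).subgroupOf D = stabilizer D α := by
      ext; rfl
    rw [this]
    exact index_stabilizer_of_transitive D α
  have e1 : (D ⊓ stabilizer G α).relIndex (stabilizer G α) * (stabilizer G α).index
      = (D ⊓ stabilizer G α).index := Subgroup.relIndex_mul_index inf_le_right
  have e2 : (D ⊓ stabilizer G α).relIndex D * D.index
      = (D ⊓ stabilizer G α).index := Subgroup.relIndex_mul_index inf_le_left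
  rw [Subgroup.inf_relIndex_right] at e1
  rw [Subgroup.inf_relIndex_left] at e2
  unfold Subgroup.relIndex at e1 e2
  rw [h1] at e1
  rw [h2] at e2
  rw [← e2, mul_comm] at e1
  exact Nat.eq_of_mul_eq_mul_left hn e1

/-- Elements fixing two distinct points lie in `D`. -/
theorem mem_of_fixes_two {G Ω : Type*} [Group G] [Finite G] [MulAction G Ω] [Finite Ω]
    (htrans : IsPretransitive G Ω) (D : Subgroup G)
    (hD : ∀ g : G, (∀ ω : Ω, g • ω ≠ ω) → g ∈ D) {α β : Ω} (hαβ : α ≠ β) {g : G}
    (hα : g • α = α) (hβ : g • β = β) : g ∈ D := by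
  have hne : Nonempty Ω := ⟨α⟩
  by_contra hg
  have h1 := (derangement_key htrans D hD).2 g hg
  rw [Nat.card_eq_one_iff_unique] at h1
  have := h1.1.elim (⟨α, hα⟩ : fixedBy Ω g) ⟨β, hβ⟩
  exact hαβ (congrArg Subtype.val this)

/-- The index of `D` divides the size of every `G_α`-invariant set avoiding `α`. -/
theorem derangement_index_dvd {G Ω : Type*} [Group G] [Finite G] [MulAction G Ω] [Finite Ω]
    (htrans : IsPretransitive G Ω) (D : Subgroup G)
    (hD : ∀ g : G, (∀ ω : Ω, g • ω ≠ ω) → g ∈ D) (α : Ω)
    (X : SubMulAction (stabilizer G α) Ω) (hX : α ∉ X) : D.index ∣ Nat.card X := by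
  have hne : Nonempty Ω := ⟨α⟩
  rw [← relIndex_stabilizer_of_transitive htrans D (derangement_key htrans D hD).1 α]
  apply index_dvd_card_of_stabilizer_le
  intro x h hh
  rw [Subgroup.mem_subgroupOf]
  have hx : (h : G) • (x : Ω) = x := by
    have := congrArg Subtype.val (mem_stabilizer_iff.mp hh)
    exact this
  have hne' : α ≠ (x : Ω) := by
    intro h'
    apply hX
    have hx2 : (x : Ω) ∈ X := x.2
    rwa [← h'] at hx2
  exact mem_of_fixes_two htrans D hD hne' h.2 hx

end Cfsg.Agent.Lib.Helper59
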