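import Mathlib
import Cfsg.Agent.Lib.Helper10.Eigen

/-!
# Piece A1 of the S5283/S5284 farm: a common eigenvector
-/

set_option autoImplicit false

namespace Cfsg.Agent.Lib.Helper59.SS

theorem exists_common_eigen {p : ℕ} [Fact p.Prime] {N : Type*} [CommGroup N] [Finite N] [Nontrivial N]
    (hexp : ∀ x : N, x ^ p = 1) (T : Set (N →* N))
    (hcomm : ∀ a ∈ T, ∀ b ∈ T, ∀ x, a (b x) = b (a x))
    (hT : ∀ a ∈ T, ∀ x, a^[p] x = a x) : ∃ v : N, v ≠ 1 ∧ ∀ a ∈ T, ∃ m : ℕ, a v = v ^ m := by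
  classical
  let S : Set (Subgroup N) := {W | W ≠ ⊥ ∧ ∀ a ∈ T, ∀ x ∈ W, a x ∈ W}
  have hne : S.Nonempty := ⟨⊤, top_ne_bot, fun _ _ _ _ => Subgroup.mem_top _⟩
  obtain ⟨W, ⟨hW1, hW2⟩, hmin⟩ :=
    WellFounded.has_min (measure (fun W : Subgroup N => Nat.card W)).wf S hne
  have hkey : ∀ a ∈ T, ∃ m : ℕ, ∀ v ∈ W, a v = v ^ m := by
    intro a ha
    have hnt : Nontrivial W := (Subgroup.nontrivial_iff_ne_bot W).2 hW1
    let σ : W →* W := (a.comp W.subtype).codRestrict W (fun x => hW2 a ha x x.2)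
    have hσ : ∀ x : W, ((σ x : W) : N) = a x := fun _ => rfl
    have hiter : ∀ (n : ℕ) (x : W), ((σ^[n] x : W) : N) = a^[n] x := by
      intro n
      induction n with
      | zero => intro x; rfl
      | succ n ih =>
        intro x
        rw [Function.iterate_succ_apply', Function.iterate_succ_apply', hσ, ih]
    obtain ⟨m, w, hw1, hw2⟩ := Cfsg.Agent.Lib.Helper10.exists_eigen (p := p) (A := W)
      (fun x => Subtype.ext (by simpa using hexp x)) σ
      (fun x => Subtype.ext (by rw [hiter, hσ, hT a ha]))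
    refine ⟨m, ?_⟩
    let E : Subgroup N :=
      { carrier := {x | x ∈ W ∧ a x = x ^ m}
        one_mem' := ⟨W.one_mem, by simp⟩
        mul_mem' := by
          rintro x y ⟨hx1, hx2⟩ ⟨hy1, hy2⟩
          exact ⟨W.mul_mem hx1 hy1, by rw [map_mul, hx2, hy2, mul_pow]⟩
        inv_mem' := by
          rintro x ⟨hx1, hx2⟩
          exact ⟨W.inv_mem hx1, by rw [map_inv, hx2, inv_pow]⟩ }
    have hEW : E ≤ W := fun x hx => hx.1
    have hES : E ∈ S := by
      refine ⟨?_, ?_⟩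
      · intro h
        have h1 : (w : N) ∈ E := ⟨w.2, by
          have := congrArg Subtype.val hw2
          rw [hσ] at this
          simpa using this⟩
        rw [h, Subgroup.mem_bot] at h1
        exact hw1 (Subtype.ext h1)
      · rintro b hb x ⟨hx1, hx2⟩
        exact ⟨hW2 b hb x hx1, by rw [hcomm a ha b hb, hx2, map_pow]⟩
    have h1 : ¬ Nat.card E < Nat.card W := hmin E hES
    have h2 : E = W := Subgroup.eq_of_le_of_card_ge hEW (not_lt.1 h1)
    intro v hv
    rw [← h2] at hv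
    exact hv.2
  obtain ⟨v, hv1⟩ := Subgroup.ne_bot_iff_exists_ne_one.1 hW1
  refine ⟨v, fun h => hv1 (Subtype.ext h), fun a ha => ?_⟩
  obtain ⟨m, hm⟩ := hkey a ha
  exact ⟨m, hm v v.2⟩

end Cfsg.Agent.Lib.Helper59.SS
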