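import Mathlib
import Cfsg.Agent.Lib.Helper59.SSA1

/-!
# Piece A2 of the S5283/S5284 farm: the step lemma
-/

set_option autoImplicit false

namespace Cfsg.Agent.Lib.Helper59.SS

theorem exists_step {P : Type*} [Group P] [Finite P] {p : ℕ} [Fact p.Prime] (hP : IsPGroup p P)
    (H : Subgroup (MulAut P)) (hcomm : ∀ a ∈ H, ∀ b ∈ H, a * b = b * a)
    (hexp : ∀ h ∈ H, h ^ (p - 1) = 1)
    (U : Subgroup P) (hUn : U.Normal) (hU : ∀ h ∈ H, ∀ x ∈ U, h x ∈ U) (hne : U ≠ ⊤) :
    ∃ x, x ∉ U ∧ (U ⊔ Subgroup.zpowers x).Normal ∧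
      ∀ h ∈ H, ∀ y ∈ U ⊔ Subgroup.zpowers x, h y ∈ U ⊔ Subgroup.zpowers x := by
  classical
  have hp : p.Prime := Fact.out
  have hQ : IsPGroup p (P ⧸ U) := hP.to_quotient U
  have hQnt : Nontrivial (P ⧸ U) := by
    rw [← not_subsingleton_iff_nontrivial]
    intro h
    exact hne (QuotientGroup.subgroup_eq_top_of_subsingleton U h)
  -- the elements of order dividing `p` of the centre of `P / U`
  let N : Subgroup (P ⧸ U) :=
    { carrier := {z | z ∈ Subgroup.center (P ⧸ U) ∧ z ^ p = 1}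
      one_mem' := ⟨Subgroup.one_mem _, one_pow _⟩
      mul_mem' := by
        rintro x y ⟨hx1, hx2⟩ ⟨hy1, hy2⟩
        refine ⟨Subgroup.mul_mem _ hx1 hy1, ?_⟩
        have hc : Commute x y := (Subgroup.mem_center_iff.1 hx1 y).symm
        rw [hc.mul_pow, hx2, hy2, one_mul]
      inv_mem' := by
        rintro x ⟨hx1, hx2⟩
        exact ⟨Subgroup.inv_mem _ hx1, by rw [inv_pow, hx2, inv_one]⟩ }
  let _ : CommGroup N :=
    { (inferInstance : Group N) with
      mul_comm := fun a b => Subtype.ext ((Subgroup.mem_center_iff.1 a.2.1 b).symm) }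
  have hNnt : Nontrivial N := by
    have hc : Nontrivial (Subgroup.center (P ⧸ U)) := hQ.center_nontrivial
    have hcp : IsPGroup p (Subgroup.center (P ⧸ U)) := hQ.to_subgroup _
    obtain ⟨z, hz⟩ := exists_ne (1 : Subgroup.center (P ⧸ U))
    have hdvd : p ∣ Nat.card (Subgroup.center (P ⧸ U)) := by
      obtain ⟨n, hn⟩ := hcp.exists_card_eq
      rw [hn]
      rcases n with _ | n
      · exfalso
        rw [pow_zero, Nat.card_eq_one_iff_unique] at hn
        exact hz (hn.1.elim _ _)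
      · exact dvd_pow_self p (Nat.succ_ne_zero n)
    obtain ⟨w, hw⟩ := exists_prime_orderOf_dvd_card' p hdvd
    refine ⟨⟨⟨(w : P ⧸ U), w.2, ?_⟩, 1, ?_⟩⟩
    · have : w ^ p = 1 := by rw [← hw]; exact pow_orderOf_eq_one w
      simpa using congrArg Subtype.val this
    · intro h
      have h1 : (w : P ⧸ U) = 1 := congrArg Subtype.val h
      have h2 : w = 1 := Subtype.ext h1
      rw [h2, orderOf_one] at hw
      exact hp.one_lt.ne hw
  -- the induced endomorphisms
  have hle : ∀ h : H, U ≤ U.comap (h : MulAut P).toMonoidHom := fun h x hx => hU h h.2 x hx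
  let bar : H → (P ⧸ U) →* (P ⧸ U) := fun h => QuotientGroup.map U U (h : MulAut P).toMonoidHom (hle h)
  have hbar : ∀ (h : H) (y : P), bar h (y : P ⧸ U) = (((h : MulAut P) y : P) : P ⧸ U) := fun _ _ => rfl
  have hbarN : ∀ (h : H) (z : P ⧸ U), z ∈ N → bar h z ∈ N := by
    rintro h z ⟨hz1, hz2⟩
    refine ⟨?_, by rw [← map_pow, hz2, map_one]⟩
    rw [Subgroup.mem_center_iff]
    intro q
    induction q using QuotientGroup.induction_on with
    | H y =>
    have h1 : ((y : P) : P ⧸ U) = bar h ((((h : MulAut P)⁻¹ y : P)) : P ⧸ U) := by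
      rw [hbar, MulAut.apply_inv_self]
    rw [h1, ← map_mul, ← map_mul, Subgroup.mem_center_iff.1 hz1]
  let t : H → (N →* N) := fun h => ((bar h).comp N.subtype).codRestrict N (fun x => hbarN h x x.2)
  have ht : ∀ (h : H) (x : N), ((t h x : N) : P ⧸ U) = bar h x := fun _ _ => rfl
  have hiter : ∀ (h : H) (n : ℕ) (x : N), (((t h)^[n] x : N) : P ⧸ U) = (bar h)^[n] x := by
    intro h n
    induction n with
    | zero => intro x; rfl
    | succ n ih =>
      intro x
      rw [Function.iterate_succ_apply', Function.iterate_succ_apply', ht, ih]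
  have hbariter : ∀ (h : H) (n : ℕ) (y : P),
      (bar h)^[n] (y : P ⧸ U) = ((((h : MulAut P) ^ n) y : P) : P ⧸ U) := by
    intro h n
    induction n with
    | zero => intro y; rfl
    | succ n ih =>
      intro y
      rw [Function.iterate_succ_apply', ih, hbar, pow_succ', MulAut.mul_apply]
  obtain ⟨v, hv1, hv2⟩ := exists_common_eigen (p := p) (N := N)
    (fun x => Subtype.ext (by simpa using x.2.2)) (Set.range t)
    (by
      rintro _ ⟨a, rfl⟩ _ ⟨b, rfl⟩ x
      apply Subtype.ext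
      rw [ht, ht, ht, ht]
      obtain ⟨y, hy⟩ := QuotientGroup.mk_surjective (x : P ⧸ U)
      rw [← hy, hbar, hbar, hbar, hbar, ← MulAut.mul_apply, ← MulAut.mul_apply,
        hcomm a a.2 b b.2])
    (by
      rintro _ ⟨a, rfl⟩ x
      apply Subtype.ext
      rw [hiter, ht]
      obtain ⟨y, hy⟩ := QuotientGroup.mk_surjective (x : P ⧸ U)
      rw [← hy, hbariter, hbar]
      have h1 : (a : MulAut P) ^ p = a := by
        have h2 : p = (p - 1) + 1 := by have := hp.one_lt; omega
        rw [h2, pow_succ, hexp a a.2, one_mul]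
      rw [h1])
  obtain ⟨x, hx⟩ := QuotientGroup.mk_surjective (v : P ⧸ U)
  have hsup : U ⊔ Subgroup.zpowers x
      = (Subgroup.zpowers (v : P ⧸ U)).comap (QuotientGroup.mk' U) := by
    rw [← QuotientGroup.comap_map_mk', MonoidHom.map_zpowers]
    congr 2
  have hnorm : (Subgroup.zpowers (v : P ⧸ U)).Normal := by
    constructor
    intro n hn g
    have hc : n ∈ Subgroup.center (P ⧸ U) := by
      obtain ⟨k, rfl⟩ := Subgroup.mem_zpowers_iff.1 hn
      exact Subgroup.zpow_mem _ v.2.1 k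
    have : g * n * g⁻¹ = n := by
      rw [Subgroup.mem_center_iff.1 hc g, mul_assoc, mul_inv_cancel, mul_one]
    rw [this]
    exact hn
  refine ⟨x, ?_, ?_, ?_⟩
  · intro hxU
    apply hv1
    apply Subtype.ext
    rw [← hx]
    exact (QuotientGroup.eq_one_iff x).2 hxU
  · rw [hsup]
    exact hnorm.comap _
  · intro h hh y hy
    rw [hsup, Subgroup.mem_comap] at hy ⊢
    obtain ⟨k, hk⟩ := Subgroup.mem_zpowers_iff.1 hy
    obtain ⟨m, hm⟩ := hv2 (t ⟨h, hh⟩) ⟨⟨h, hh⟩, rfl⟩
    have h1 : bar ⟨h, hh⟩ (v : P ⧸ U) = (v : P ⧸ U) ^ m := by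
      have := congrArg Subtype.val hm
      rw [ht] at this
      simpa using this
    have h2 : QuotientGroup.mk' U (h y) = bar ⟨h, hh⟩ (QuotientGroup.mk' U y) := rfl
    rw [h2, ← hk, map_zpow, h1]
    exact Subgroup.zpow_mem _ (Subgroup.pow_mem _ (Subgroup.mem_zpowers _) _) _

end Cfsg.Agent.Lib.Helper59.SS
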