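import Mathlib
import Cfsg.Agent.Lib.Helper84.ChainStab

/-!
# Piece B1 of the S5283/S5284 farm: commutators stabilise a chain with cyclic steps
-/

set_option autoImplicit false

namespace Cfsg.Agent.Lib.Helper59.SS

open Cfsg.Agent.Lib.Helper84

/-- an automorphism preserving `C` and `C ⊔ ⟨x⟩` acts on `(C ⊔ ⟨x⟩)/C` as a power map -/
theorem exists_zpow_of_step {P : Type*} [Group P] (C : Subgroup P) [C.Normal] (x : P)
    (α : MulAut P) (hC : ∀ y ∈ C, α y ∈ C)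
    (hD : ∀ y ∈ C ⊔ Subgroup.zpowers x, α y ∈ C ⊔ Subgroup.zpowers x) :
    ∃ k : ℤ, ∀ y ∈ C ⊔ Subgroup.zpowers x, ((α y : P) : P ⧸ C) = (y : P ⧸ C) ^ k := by
  have hmem : ∀ y ∈ C ⊔ Subgroup.zpowers x, ∃ j : ℤ, (y : P ⧸ C) = (x : P ⧸ C) ^ j := by
    intro y hy
    rw [← SetLike.mem_coe, Subgroup.normal_mul] at hy
    obtain ⟨u, hu, w, hw, rfl⟩ := Set.mem_mul.1 hy
    obtain ⟨j, rfl⟩ := Subgroup.mem_zpowers_iff.1 hw
    refine ⟨j, ?_⟩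
    rw [QuotientGroup.mk_mul, (QuotientGroup.eq_one_iff u).2 hu, one_mul, QuotientGroup.mk_zpow]
  have hx : x ∈ C ⊔ Subgroup.zpowers x := (le_sup_right : _ ≤ C ⊔ Subgroup.zpowers x)
    (Subgroup.mem_zpowers x)
  obtain ⟨k, hk⟩ := hmem _ (hD x hx)
  refine ⟨k, fun y hy => ?_⟩
  rw [← SetLike.mem_coe, Subgroup.normal_mul] at hy
  obtain ⟨u, hu, w, hw, rfl⟩ := Set.mem_mul.1 hy
  obtain ⟨j, rfl⟩ := Subgroup.mem_zpowers_iff.1 hw
  rw [map_mul, map_zpow, QuotientGroup.mk_mul, QuotientGroup.mk_mul,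
    (QuotientGroup.eq_one_iff u).2 hu, (QuotientGroup.eq_one_iff (α u)).2 (hC u hu), one_mul, one_mul,
    QuotientGroup.mk_zpow, QuotientGroup.mk_zpow, hk, ← zpow_mul, ← zpow_mul, mul_comm]

theorem commutator_aux {P : Type*} [Group P] (c : ℕ → Subgroup P)
    (hn : ∀ i, (c i).Normal) (hstep : ∀ i, ∃ x, c (i + 1) = c i ⊔ Subgroup.zpowers x)
    (A : Subgroup (MulAut P)) (hA : ∀ α ∈ A, ∀ i, ∀ x ∈ c i, α x ∈ c i)
    (a b : MulAut P) (ha : a ∈ A) (hb : b ∈ A) (i : ℕ) (y : P) (hy : y ∈ c (i + 1)) :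
    y⁻¹ * (a * b * a⁻¹ * b⁻¹) y ∈ c i := by
  have := hn i
  obtain ⟨x, hx⟩ := hstep i
  obtain ⟨k, hk⟩ := exists_zpow_of_step (c i) x a (hA a ha i) (by rw [← hx]; exact hA a ha (i + 1))
  obtain ⟨l, hl⟩ := exists_zpow_of_step (c i) x b (hA b hb i) (by rw [← hx]; exact hA b hb (i + 1))
  rw [← hx] at hk hl
  have hcomm : ∀ z ∈ c (i + 1), ((a (b z) : P) : P ⧸ c i) = ((b (a z) : P) : P ⧸ c i) := by
    intro z hz
    rw [hk _ (hA b hb (i + 1) z hz), hl z hz, hl _ (hA a ha (i + 1) z hz), hk z hz, ← zpow_mul,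
      ← zpow_mul, mul_comm]
  have hz : a⁻¹ (b⁻¹ y) ∈ c (i + 1) :=
    hA _ (A.inv_mem ha) (i + 1) _ (hA _ (A.inv_mem hb) (i + 1) y hy)
  have h1 := hcomm _ hz
  rw [MulAut.apply_inv_self, MulAut.apply_inv_self] at h1
  rw [← QuotientGroup.eq]
  rw [← h1]
  rfl

theorem commutator_mem_chainStab {P : Type*} [Group P] (c : ℕ → Subgroup P) (hc : Monotone c)
    (hn : ∀ i, (c i).Normal) (hstep : ∀ i, ∃ x, c (i + 1) = c i ⊔ Subgroup.zpowers x)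
    (A : Subgroup (MulAut P)) (hA : ∀ α ∈ A, ∀ i, ∀ x ∈ c i, α x ∈ c i)
    (a b : MulAut P) (ha : a ∈ A) (hb : b ∈ A) :
    a * b * a⁻¹ * b⁻¹ ∈ chainStab c hc := by
  rw [mem_chainStab]
  intro i y hy
  refine ⟨commutator_aux c hn hstep A hA a b ha hb i y hy, ?_⟩
  have h1 : (a * b * a⁻¹ * b⁻¹)⁻¹ = b * a * b⁻¹ * a⁻¹ := by group
  rw [h1]
  exact commutator_aux c hn hstep A hA b a hb ha i y hy

end Cfsg.Agent.Lib.Helper59.SS
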