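import Mathlib
import Cfsg.Agent.Lib.Helper59.SSB1

/-!
# Piece B2 of the S5283/S5284 farm: a power of a chain-preserving automorphism stabilises the chain
-/

set_option autoImplicit false

namespace Cfsg.Agent.Lib.Helper59.SS

open Cfsg.Agent.Lib.Helper84

theorem inv_preserves {P : Type*} [Group P] [Finite P] (C : Subgroup P) (a : MulAut P)
    (ha : ∀ x ∈ C, a x ∈ C) : ∀ x ∈ C, a⁻¹ x ∈ C := by
  have hmap : C.map a.toMonoidHom = C := by
    apply Subgroup.eq_of_le_of_card_ge
    · rintro _ ⟨z, hz, rfl⟩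
      exact ha z hz
    · rw [Subgroup.card_map_of_injective (f := a.toMonoidHom) a.injective]
  intro x hx
  rw [← hmap] at hx
  obtain ⟨z, hz, rfl⟩ := hx
  have : a⁻¹ (a.toMonoidHom z) = z := MulAut.inv_apply_self _ a z
  rw [this]
  exact hz

theorem pow_aux {P : Type*} [Group P] [Finite P] {p : ℕ} [Fact p.Prime]
    (hP : IsPGroup p P) (c : ℕ → Subgroup P) (hn : ∀ i, (c i).Normal)
    (hstep : ∀ i, ∃ x, c (i + 1) = c i ⊔ Subgroup.zpowers x)
    (a : MulAut P) (ha : ∀ i, ∀ x ∈ c i, a x ∈ c i) (i : ℕ) (y : P) (hy : y ∈ c (i + 1)) :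
    y⁻¹ * (a ^ ((p - 1) * Nat.card P)) y ∈ c i := by
  have hp : p.Prime := Fact.out
  have := hn i
  obtain ⟨x, hx⟩ := hstep i
  have ha' : ∀ i, ∀ x ∈ c i, a⁻¹ x ∈ c i := fun i => inv_preserves (c i) a (ha i)
  obtain ⟨k, hk⟩ := exists_zpow_of_step (c i) x a (ha i) (by rw [← hx]; exact ha (i + 1))
  obtain ⟨l, hl⟩ := exists_zpow_of_step (c i) x a⁻¹ (ha' i) (by rw [← hx]; exact ha' (i + 1))
  rw [← hx] at hk hl
  set e := (p - 1) * Nat.card P with he
  have hpowmem : ∀ (n : ℕ), ∀ z ∈ c (i + 1), (a ^ n) z ∈ c (i + 1) := by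
    intro n
    induction n with
    | zero => intro z hz; simpa using hz
    | succ n ih =>
      intro z hz
      rw [pow_succ', MulAut.mul_apply]
      exact ha (i + 1) _ (ih z hz)
  have hpow : ∀ (n : ℕ), ∀ z ∈ c (i + 1), (((a ^ n) z : P) : P ⧸ c i) = (z : P ⧸ c i) ^ (k ^ n) := by
    intro n
    induction n with
    | zero => intro z hz; simp
    | succ n ih =>
      intro z hz
      rw [pow_succ', MulAut.mul_apply, hk _ (hpowmem n z hz), ih z hz, ← zpow_mul, pow_succ' k,
        mul_comm]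
  -- the order of the image of `y`
  set g : P ⧸ c i := (y : P ⧸ c i) with hg
  have hlk : g ^ (l * k) = g ^ (1 : ℤ) := by
    have h1 := hk _ (ha' (i + 1) y hy)
    rw [MulAut.apply_inv_self, hl y hy, ← zpow_mul] at h1
    rw [zpow_one]
    exact h1.symm
  rw [zpow_eq_zpow_iff_modEq] at hlk
  have hkey : g ^ (k ^ e) = g ^ (1 : ℤ) := by
    rw [zpow_eq_zpow_iff_modEq]
    set o := orderOf g with ho
    have h1 : ((l : ZMod o) * (k : ZMod o)) = 1 := by
      have := (ZMod.intCast_eq_intCast_iff _ _ o).2 hlk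
      push_cast at this
      exact this
    let u : (ZMod o)ˣ := ⟨k, l, by rw [mul_comm]; exact h1, h1⟩
    have h2 : u ^ Nat.totient o = 1 := ZMod.pow_totient u
    have hdvd : Nat.totient o ∣ e := by
      have hQ : IsPGroup p (P ⧸ c i) := hP.to_quotient _
      obtain ⟨j, hj⟩ := hQ g
      obtain ⟨j', _, hj'⟩ := (Nat.dvd_prime_pow hp).1 (orderOf_dvd_of_pow_eq_one hj)
      rw [← ho] at hj'
      rcases j' with _ | j'
      · rw [hj', pow_zero, Nat.totient_one]
        exact one_dvd _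
      · rw [hj', Nat.totient_prime_pow_succ hp, he, mul_comm]
        apply Nat.mul_dvd_mul_left
        have h3 : o ∣ Nat.card P :=
          (orderOf_dvd_natCard g).trans (Subgroup.card_quotient_dvd_card _)
        rw [hj'] at h3
        exact (pow_dvd_pow p (Nat.le_succ j')).trans h3
    obtain ⟨d, hd⟩ := hdvd
    have h3 : u ^ e = 1 := by rw [hd, pow_mul, h2, one_pow]
    have h4 : (k : ZMod o) ^ e = 1 := by
      have := congrArg Units.val h3
      simpa using this
    apply (ZMod.intCast_eq_intCast_iff _ _ o).1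
    push_cast
    exact h4
  rw [← QuotientGroup.eq, hpow e y hy, hkey, zpow_one]

theorem pow_mem_chainStab {P : Type*} [Group P] [Finite P] {p : ℕ} [Fact p.Prime]
    (hP : IsPGroup p P) (c : ℕ → Subgroup P) (hc : Monotone c) (hn : ∀ i, (c i).Normal)
    (hstep : ∀ i, ∃ x, c (i + 1) = c i ⊔ Subgroup.zpowers x)
    (a : MulAut P) (ha : ∀ i, ∀ x ∈ c i, a x ∈ c i) :
    a ^ ((p - 1) * Nat.card P) ∈ chainStab c hc := by
  rw [mem_chainStab]
  intro i y hy
  refine ⟨pow_aux hP c hn hstep a ha i y hy, ?_⟩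
  rw [← inv_pow]
  exact pow_aux hP c hn hstep a⁻¹ (fun i => inv_preserves (c i) a (ha i)) i y hy

end Cfsg.Agent.Lib.Helper59.SS
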